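import Cfsg.Agent.H946.KZ.SameF4
import Cfsg.Agent.H325.Same.ExcPairE

/-!
# Own characteristic names: one class of primitive primes (helper290)

`surv XT aT e` is a computed list of triples `(i, t, m)` : the type `t` and the rank `m` (`mkC t m q` is the name) which
satisfy the conditions of `comp2` for the exponent `i`.  `engine` : a name `g` of characteristic `p` whose order
divides the order of `T` and is divisible by all the primitive primes of class `e` is in the list.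
-/

set_option autoImplicit false

namespace Cfsg.Agent.H290.Wei

open Cfsg Cfsg.Agent.OrdDiv Cfsg.Agent.H436 Cfsg.Agent.H915.GN Cfsg.Agent.H264.GN Cfsg.Agent.H264.FKS
  Cfsg.Agent.H325.Same Cfsg.Agent.H946.KZ

/-- the name of type `t`, rank `m` over `q` -/
def mkC (t m q : ℕ) : Grp :=
  match t with
  | 0 => .psl m q
  | 1 => .psp m q
  | 2 => .oodd m q
  | 3 => .psu m q
  | 4 => .oplus m q
  | 5 => .ominus m q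
  | 6 => .g2 q
  | 7 => .f4 q
  | 8 => .e6 q
  | 9 => .e7 q
  | 10 => .e8 q
  | 11 => .te6 q
  | 12 => .td4 q
  | 13 => .sz q
  | 14 => .ree q
  | _ => .tf4 q

/-- the top exponent -/
def MC (t m : ℕ) : ℕ := Mg (mkC t m 0)

/-- the exponent of the power of `q` -/
def aC (t m : ℕ) : ℕ := ag (mkC t m 0)

/-- exponents whose primitive primes divide the order -/
def YC (t m : ℕ) : List ℕ :=
  match t with
  | 0 => (List.range (m + 1)).filter fun k => Nat.ble 2 k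
  | 1 => (List.range (2 * m + 1)).filter fun k => Nat.ble 1 k && (k % 2 == 0)
  | 2 => (List.range (2 * m + 1)).filter fun k => Nat.ble 1 k && (k % 2 == 0)
  | 3 => (List.range (2 * m + 1)).filter fun k => Nat.ble 3 k && (k % 2 == 0) && (Nat.ble k m || (k / 2 % 2 == 1))
  | 4 => (List.range (2 * (m - 1) + 1)).filter fun k => Nat.ble 4 k && (k % 2 == 0)
  | 5 => (List.range (2 * m + 1)).filter fun k => Nat.ble 4 k && (k % 2 == 0)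
  | 6 => [2, 3, 6]
  | 7 => [2, 3, 4, 6, 8, 12]
  | 8 => [2, 3, 4, 5, 6, 8, 9, 12]
  | 9 => [2, 3, 4, 5, 6, 7, 8, 9, 10, 12, 14, 18]
  | 10 => [2, 3, 4, 5, 6, 7, 8, 9, 10, 12, 14, 15, 18, 20, 24, 30]
  | 11 => [2, 3, 4, 6, 8, 10, 12, 18]
  | 12 => [2, 3, 6, 12]
  | 13 => [1, 4]
  | 14 => [1, 6]
  | _ => [1, 4, 6, 12]

/-- the least rank -/
def lo (t : ℕ) : ℕ :=
  match t with
  | 0 => 2
  | 1 => 2
  | 2 => 3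
  | 3 => 3
  | 4 => 4
  | 5 => 4
  | _ => 0

/-- the test for one exponent -/
def test (XT : List ℕ) (i M k : ℕ) : Bool :=
  (XT.any fun j => (M * j) % (i * k) == 0) || (k == 1) || ((k == 2) && ((3 * M) % i == 0)) ||
    ((k == 3) && ((2 * M) % i == 0)) || ((k == 6) && (M % i == 0))

/-- the test -/
def ok (XT : List ℕ) (aT i t m : ℕ) : Bool :=
  Nat.ble (aC t m * i) (aT * MC t m) && (YC t m).all fun k => test XT i (MC t m) k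

/-- the ranks -/
def ranks (B t : ℕ) : List ℕ := if t < 6 then (List.range (B + 1)).filter fun m => Nat.ble (lo t) m else [0]

/-- the surviving types -/
def surv (XT : List ℕ) (aT e : ℕ) : List (ℕ × ℕ × ℕ) :=
  (XT.filter fun i => Nat.ble e i).flatMap fun i =>
    (List.range 16).flatMap fun t => ((ranks (4 * aT / e + 1) t).filter fun m => ok XT aT i t m).map fun m => (i, t, m)

theorem mem_surv {XT : List ℕ} {aT e i t m : ℕ} (hi : i ∈ XT) (hei : e ≤ i) (ht : t < 16)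
    (hm : m ∈ ranks (4 * aT / e + 1) t) (hok : ok XT aT i t m = true) : (i, t, m) ∈ surv XT aT e := by
  unfold surv
  rw [List.mem_flatMap]
  refine ⟨i, List.mem_filter.2 ⟨hi, Nat.ble_eq_true_of_le hei⟩, ?_⟩
  rw [List.mem_flatMap]
  exact ⟨t, List.mem_range.2 ht, List.mem_map.2 ⟨m, List.mem_filter.2 ⟨hm, hok⟩, rfl⟩⟩

variable {p f c : ℕ} {g : Grp}

theorem test_of {XT : List ℕ} {i M k f₁ : ℕ} (hf₁ : 1 ≤ f₁) (hfM : f₁ * M = f * i)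
    (h : 3 ≤ f₁ * k → ¬ (p = 2 ∧ f₁ * k = 6) → ∃ j, j ∈ XT ∧ i * k ∣ M * j) (hk : 1 ≤ k) :
    test XT i M k = true := by
  unfold test
  simp only [Bool.or_eq_true, Bool.and_eq_true, beq_iff_eq, List.any_eq_true]
  by_cases h3 : 3 ≤ f₁ * k
  · by_cases h6 : p = 2 ∧ f₁ * k = 6
    · have h7 := h6.2
      have hk6 : k ∣ 6 := ⟨f₁, by rw [← h7, mul_comm]⟩
      have hk7 := Nat.le_of_dvd (by norm_num) hk6
      have hk8 : k = 1 ∨ k = 2 ∨ k = 3 ∨ k = 6 := by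
        interval_cases k
        · simp
        · simp
        · simp
        · omega
        · omega
        · simp
      rcases hk8 with rfl | rfl | rfl | rfl
      · simp
      · obtain rfl : f₁ = 3 := by omega
        exact Or.inl (Or.inl (Or.inr ⟨rfl, Nat.mod_eq_zero_of_dvd ⟨f, by rw [hfM, mul_comm]⟩⟩))
      · obtain rfl : f₁ = 2 := by omega
        exact Or.inl (Or.inr ⟨rfl, Nat.mod_eq_zero_of_dvd ⟨f, by rw [hfM, mul_comm]⟩⟩)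
      · obtain rfl : f₁ = 1 := by omega
        exact Or.inr ⟨rfl, Nat.mod_eq_zero_of_dvd ⟨f, by rw [← one_mul M, hfM, mul_comm]⟩⟩
    · obtain ⟨j, hj, hd⟩ := h h3 h6
      exact Or.inl (Or.inl (Or.inl (Or.inl ⟨j, hj, Nat.mod_eq_zero_of_dvd hd⟩)))
  · have hk2 : k = 1 ∨ k = 2 := by
      have : 1 * k ≤ f₁ * k := Nat.mul_le_mul_right _ hf₁
      omega
    rcases hk2 with rfl | rfl
    · simp
    · obtain rfl : f₁ = 1 := by omega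
      refine Or.inl (Or.inl (Or.inr ⟨rfl, Nat.mod_eq_zero_of_dvd (Dvd.dvd.mul_left ⟨f, ?_⟩ 3)⟩))
      rw [← one_mul M, hfM, mul_comm]

/-- the bound for the rank from `a i ≤ aT M` -/
theorem le_bound {m i e aT : ℕ} (he : 1 ≤ e) (hei : e ≤ i) (h : (m - 1) * i ≤ 4 * aT) : m ≤ 4 * aT / e + 1 := by
  have h1 : (m - 1) * e ≤ 4 * aT := (Nat.mul_le_mul_left _ hei).trans h
  have h2 : m - 1 ≤ 4 * aT / e := (Nat.le_div_iff_mul_le (by omega)).2 h1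
  omega

/-- **The engine.** -/
theorem engine {XT : List ℕ} {MT aT e : ℕ} (hp : p.Prime) (hf : 1 ≤ f) (hg : Cond g) (hch : HasChar p g)
    (hc : den g * c = num g) (hT : TD p f c (fun i => i ∈ XT) MT aT) (h7 : 7 ≤ e) (h2 : MT < 2 * e)
    (hz : ZT p f e c) :
    ∃ x ∈ surv XT aT e, ∃ f₁, 1 ≤ f₁ ∧ f₁ * MC x.2.1 x.2.2 = f * x.1 ∧ g = mkC x.2.1 x.2.2 (p ^ f₁) := by
  obtain ⟨f₁, hf₁, hfl, hK, hY⟩ := kd_all hp hg hch hc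
  obtain ⟨i, hi, hei, hfM, ha, -, hYc⟩ := comp2 hp hf hT hK hf₁ h7 h2 hz hY
  have hi0 : 0 < i := by omega
  -- the cases without rank
  have key : ∀ t m : ℕ, t < 16 → m ∈ ranks (4 * aT / e + 1) t → g = mkC t m (fld g) → MC t m = Mg g → aC t m = ag g →
      (∀ k ∈ YC t m, 1 ≤ k ∧ Yg g k) →
      ∃ x ∈ surv XT aT e, ∃ f₁, 1 ≤ f₁ ∧ f₁ * MC x.2.1 x.2.2 = f * x.1 ∧ g = mkC x.2.1 x.2.2 (p ^ f₁) := by
    intro t m ht hm hgt hM haC hYC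
    refine ⟨(i, t, m), mem_surv hi hei ht hm ?_, f₁, hf₁, ?_, ?_⟩
    · unfold ok
      rw [Bool.and_eq_true, List.all_eq_true, Nat.ble_eq, haC, hM]
      exact ⟨ha, fun k hk => test_of hf₁ hfM (fun h3 h6 => hYc k (hYC k hk).2 h3 h6) (hYC k hk).1⟩
    · show f₁ * MC t m = f * i
      rw [hM, hfM]
    · show g = mkC t m (p ^ f₁)
      rw [← hfl]
      exact hgt
  have hr0 : ∀ t : ℕ, ¬ t < 6 → (0 : ℕ) ∈ ranks (4 * aT / e + 1) t := by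
    intro t ht
    unfold ranks
    rw [if_neg ht]
    exact List.mem_singleton_self _
  have hrk : ∀ t m : ℕ, t < 6 → lo t ≤ m → (m - 1) * i ≤ 4 * aT → m ∈ ranks (4 * aT / e + 1) t := by
    intro t m ht h1 h2
    unfold ranks
    rw [if_pos ht, List.mem_filter, List.mem_range, Nat.ble_eq]
    have := le_bound (e := e) (by omega) hei h2
    exact ⟨by omega, h1⟩
  clear hfM hYc hK hY
  cases g
  case psl m q =>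
    obtain ⟨hm, -, -⟩ := hg
    have ha' : m * (m - 1) / 2 * i ≤ aT * m := ha
    refine key 0 m (by norm_num) (hrk 0 m (by norm_num) hm ?_) rfl rfl rfl ?_
    · have h3 : m * (m - 1) / 2 * 2 = m * (m - 1) := Nat.div_mul_cancel (Nat.even_mul_pred_self m).two_dvd
      refine Nat.le_of_mul_le_mul_left (c := m) ?_ (by omega)
      calc m * ((m - 1) * i) = m * (m - 1) / 2 * 2 * i := by rw [h3]; ring
        _ = 2 * (m * (m - 1) / 2 * i) := by ring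
        _ ≤ 2 * (aT * m) := by omega
        _ ≤ m * (4 * aT) := by nlinarith [Nat.zero_le (aT * m)]
    · intro k hk
      rw [YC, List.mem_filter, List.mem_range, Nat.ble_eq] at hk
      exact ⟨by omega, hk.2, by omega⟩
  case psp m q =>
    obtain ⟨hm, -, -⟩ := hg
    have ha' : m ^ 2 * i ≤ aT * (2 * m) := ha
    refine key 1 m (by norm_num) (hrk 1 m (by norm_num) hm ?_) rfl rfl rfl ?_
    · refine Nat.le_of_mul_le_mul_left (c := m) ?_ (by omega)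
      calc m * ((m - 1) * i) ≤ m * (m * i) := Nat.mul_le_mul_left _ (Nat.mul_le_mul_right _ (by omega))
        _ = m ^ 2 * i := by ring
        _ ≤ aT * (2 * m) := ha'
        _ ≤ m * (4 * aT) := by nlinarith [Nat.zero_le (aT * m)]
    · intro k hk
      rw [YC, List.mem_filter, List.mem_range, Bool.and_eq_true, Nat.ble_eq, beq_iff_eq] at hk
      exact ⟨hk.2.1, hk.2.1, by omega, Nat.dvd_of_mod_eq_zero hk.2.2⟩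
  case oodd m q =>
    obtain ⟨hm, -, -⟩ := hg
    have ha' : m ^ 2 * i ≤ aT * (2 * m) := ha
    refine key 2 m (by norm_num) (hrk 2 m (by norm_num) hm ?_) rfl rfl rfl ?_
    · refine Nat.le_of_mul_le_mul_left (c := m) ?_ (by omega)
      calc m * ((m - 1) * i) ≤ m * (m * i) := Nat.mul_le_mul_left _ (Nat.mul_le_mul_right _ (by omega))
        _ = m ^ 2 * i := by ring
        _ ≤ aT * (2 * m) := ha'
        _ ≤ m * (4 * aT) := by nlinarith [Nat.zero_le (aT * m)]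
    · intro k hk
      rw [YC, List.mem_filter, List.mem_range, Bool.and_eq_true, Nat.ble_eq, beq_iff_eq] at hk
      exact ⟨hk.2.1, hk.2.1, by omega, Nat.dvd_of_mod_eq_zero hk.2.2⟩
  case psu m q =>
    obtain ⟨hm, -, -⟩ := hg
    have ha' : m * (m - 1) / 2 * i ≤ aT * (2 * (if m % 2 = 0 then m - 1 else m)) := ha
    have hle : 2 * (if m % 2 = 0 then m - 1 else m) ≤ 2 * m := by split_ifs <;> omega
    refine key 3 m (by norm_num) (hrk 3 m (by norm_num) hm ?_) rfl rfl rfl ?_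
    · have h3 : m * (m - 1) / 2 * 2 = m * (m - 1) := Nat.div_mul_cancel (Nat.even_mul_pred_self m).two_dvd
      refine Nat.le_of_mul_le_mul_left (c := m) ?_ (by omega)
      have h4 : m * (m - 1) / 2 * i ≤ aT * (2 * m) := ha'.trans (Nat.mul_le_mul_left _ hle)
      calc m * ((m - 1) * i) = m * (m - 1) / 2 * 2 * i := by rw [h3]; ring
        _ = 2 * (m * (m - 1) / 2 * i) := by ring
        _ ≤ 2 * (aT * (2 * m)) := by omega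
        _ = m * (4 * aT) := by ring
    · intro k hk
      rw [YC, List.mem_filter, List.mem_range, Bool.and_eq_true, Bool.and_eq_true, Nat.ble_eq, beq_iff_eq,
        Bool.or_eq_true, Nat.ble_eq, beq_iff_eq] at hk
      refine ⟨by omega, hk.2.1.1, ?_⟩
      rcases hk.2.2 with h | h
      · exact Or.inl ⟨h, hk.2.1.2⟩
      · exact Or.inr ⟨k / 2, by omega, by omega, h⟩
  case oplus m q =>
    obtain ⟨hm, -⟩ := hg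
    have ha' : m * (m - 1) * i ≤ aT * (2 * (m - 1)) := ha
    refine key 4 m (by norm_num) (hrk 4 m (by norm_num) hm ?_) rfl rfl rfl ?_
    · refine Nat.le_of_mul_le_mul_left (c := m - 1) ?_ (by omega)
      calc (m - 1) * ((m - 1) * i) ≤ (m - 1) * (m * i) := Nat.mul_le_mul_left _ (Nat.mul_le_mul_right _ (by omega))
        _ = m * (m - 1) * i := by ring
        _ ≤ aT * (2 * (m - 1)) := ha'
        _ ≤ (m - 1) * (4 * aT) := by nlinarith [Nat.zero_le (aT * (m - 1))]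
    · intro k hk
      rw [YC, List.mem_filter, List.mem_range, Bool.and_eq_true, Nat.ble_eq, beq_iff_eq] at hk
      exact ⟨by omega, hk.2.1, by omega, Nat.dvd_of_mod_eq_zero hk.2.2⟩
  case ominus m q =>
    obtain ⟨hm, -⟩ := hg
    have ha' : m * (m - 1) * i ≤ aT * (2 * m) := ha
    refine key 5 m (by norm_num) (hrk 5 m (by norm_num) hm ?_) rfl rfl rfl ?_
    · refine Nat.le_of_mul_le_mul_left (c := m) ?_ (by omega)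
      calc m * ((m - 1) * i) = m * (m - 1) * i := by ring
        _ ≤ aT * (2 * m) := ha'
        _ ≤ m * (4 * aT) := by nlinarith [Nat.zero_le (aT * m)]
    · intro k hk
      rw [YC, List.mem_filter, List.mem_range, Bool.and_eq_true, Nat.ble_eq, beq_iff_eq] at hk
      exact ⟨by omega, hk.2.1, by omega, Nat.dvd_of_mod_eq_zero hk.2.2⟩
  case g2 q => exact key 6 0 (by norm_num) (hr0 6 (by norm_num)) rfl rfl rfl fun k hk => ⟨by revert k; decide, hk⟩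
  case f4 q => exact key 7 0 (by norm_num) (hr0 7 (by norm_num)) rfl rfl rfl fun k hk => ⟨by revert k; decide, hk⟩
  case e6 q => exact key 8 0 (by norm_num) (hr0 8 (by norm_num)) rfl rfl rfl fun k hk => ⟨by revert k; decide, hk⟩
  case e7 q => exact key 9 0 (by norm_num) (hr0 9 (by norm_num)) rfl rfl rfl fun k hk => ⟨by revert k; decide, hk⟩
  case e8 q => exact key 10 0 (by norm_num) (hr0 10 (by norm_num)) rfl rfl rfl fun k hk => ⟨by revert k; decide, hk⟩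
  case te6 q => exact key 11 0 (by norm_num) (hr0 11 (by norm_num)) rfl rfl rfl fun k hk => ⟨by revert k; decide, hk⟩
  case td4 q => exact key 12 0 (by norm_num) (hr0 12 (by norm_num)) rfl rfl rfl fun k hk => ⟨by revert k; decide, hk⟩
  case sz q => exact key 13 0 (by norm_num) (hr0 13 (by norm_num)) rfl rfl rfl fun k hk => ⟨by revert k; decide, hk⟩
  case ree q => exact key 14 0 (by norm_num) (hr0 14 (by norm_num)) rfl rfl rfl fun k hk => ⟨by revert k; decide, hk⟩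
  case tf4 q => exact key 15 0 (by norm_num) (hr0 15 (by norm_num)) rfl rfl rfl fun k hk => ⟨by revert k; decide, hk⟩
  all_goals exact absurd hch not_false

theorem surv_e8_30 : surv [2, 8, 12, 14, 18, 20, 24, 30] 120 30 =
    [(30, 0, 2), (30, 0, 3), (30, 0, 5), (30, 1, 2), (30, 1, 3), (30, 1, 5), (30, 2, 3), (30, 2, 5), (30, 3, 3),
    (30, 3, 4), (30, 3, 5), (30, 3, 6), (30, 4, 4), (30, 4, 6), (30, 5, 5), (30, 6, 0), (30, 7, 0), (30, 10, 0),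
    (30, 12, 0), (30, 13, 0), (30, 14, 0), (30, 15, 0)] := by
  decide +kernel

/-- class 30 of `e8`, own characteristic -/
theorem charp_e8_30 (hp : p.Prime) (hf : 1 ≤ f) (hg : Cond g) (hch : HasChar p g) (hc : den g * c = num g)
    (hdvd : c ∣ num (.e8 (p ^ f))) (hz : ZT p f 30 c) :
    ∃ f₁, 1 ≤ f₁ ∧ (
      (f₁ * 2 = f * 30 ∧ g = .psl 2 (p ^ f₁)) ∨
      (f₁ * 3 = f * 30 ∧ g = .psl 3 (p ^ f₁)) ∨
      (f₁ * 5 = f * 30 ∧ g = .psl 5 (p ^ f₁)) ∨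
      (f₁ * 4 = f * 30 ∧ g = .psp 2 (p ^ f₁)) ∨
      (f₁ * 6 = f * 30 ∧ g = .psp 3 (p ^ f₁)) ∨
      (f₁ * 10 = f * 30 ∧ g = .psp 5 (p ^ f₁)) ∨
      (f₁ * 6 = f * 30 ∧ g = .oodd 3 (p ^ f₁)) ∨
      (f₁ * 10 = f * 30 ∧ g = .oodd 5 (p ^ f₁)) ∨
      (f₁ * 6 = f * 30 ∧ g = .psu 3 (p ^ f₁)) ∨
      (f₁ * 6 = f * 30 ∧ g = .psu 4 (p ^ f₁)) ∨
      (f₁ * 10 = f * 30 ∧ g = .psu 5 (p ^ f₁)) ∨
      (f₁ * 10 = f * 30 ∧ g = .psu 6 (p ^ f₁)) ∨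
      (f₁ * 6 = f * 30 ∧ g = .oplus 4 (p ^ f₁)) ∨
      (f₁ * 10 = f * 30 ∧ g = .oplus 6 (p ^ f₁)) ∨
      (f₁ * 10 = f * 30 ∧ g = .ominus 5 (p ^ f₁)) ∨
      (f₁ * 6 = f * 30 ∧ g = .g2 (p ^ f₁)) ∨
      (f₁ * 12 = f * 30 ∧ g = .f4 (p ^ f₁)) ∨
      (f₁ * 30 = f * 30 ∧ g = .e8 (p ^ f₁)) ∨
      (f₁ * 12 = f * 30 ∧ g = .td4 (p ^ f₁)) ∨
      (f₁ * 4 = f * 30 ∧ g = .sz (p ^ f₁)) ∨
      (f₁ * 6 = f * 30 ∧ g = .ree (p ^ f₁)) ∨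
      (f₁ * 12 = f * 30 ∧ g = .tf4 (p ^ f₁))) := by
  obtain ⟨x, hx, f₁, h1, h2, h3⟩ := engine (XT := [2, 8, 12, 14, 18, 20, 24, 30]) (MT := 30) (aT := 120) (e := 30) hp hf hg hch hc
    (td_e8 hp hf hdvd) (by norm_num) (by norm_num) hz
  rw [surv_e8_30] at hx
  simp only [List.mem_cons, List.not_mem_nil, or_false] at hx
  refine ⟨f₁, h1, ?_⟩
  rcases hx with rfl | rfl | rfl | rfl | rfl | rfl | rfl | rfl | rfl | rfl | rfl | rfl | rfl | rfl | rfl | rfl | rfl | rfl | rfl | rfl | rfl | rfl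
  · exact Or.inl ⟨h2, h3⟩
  · exact Or.inr (Or.inl ⟨h2, h3⟩)
  · exact Or.inr (Or.inr (Or.inl ⟨h2, h3⟩))
  · exact Or.inr (Or.inr (Or.inr (Or.inl ⟨h2, h3⟩)))
  · exact Or.inr (Or.inr (Or.inr (Or.inr (Or.inl ⟨h2, h3⟩))))
  · exact Or.inr (Or.inr (Or.inr (Or.inr (Or.inr (Or.inl ⟨h2, h3⟩)))))
  · exact Or.inr (Or.inr (Or.inr (Or.inr (Or.inr (Or.inr (Or.inl ⟨h2, h3⟩))))))
  · exact Or.inr (Or.inr (Or.inr (Or.inr (Or.inr (Or.inr (Or.inr (Or.inl ⟨h2, h3⟩)))))))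
  · exact Or.inr (Or.inr (Or.inr (Or.inr (Or.inr (Or.inr (Or.inr (Or.inr (Or.inl ⟨h2, h3⟩))))))))
  · exact Or.inr (Or.inr (Or.inr (Or.inr (Or.inr (Or.inr (Or.inr (Or.inr (Or.inr (Or.inl ⟨h2, h3⟩)))))))))
  · exact Or.inr (Or.inr (Or.inr (Or.inr (Or.inr (Or.inr (Or.inr (Or.inr (Or.inr (Or.inr (Or.inl ⟨h2, h3⟩))))))))))
  · exact Or.inr (Or.inr (Or.inr (Or.inr (Or.inr (Or.inr (Or.inr (Or.inr (Or.inr (Or.inr (Or.inr (Or.inl ⟨h2, h3⟩)))))))))))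
  · exact Or.inr (Or.inr (Or.inr (Or.inr (Or.inr (Or.inr (Or.inr (Or.inr (Or.inr (Or.inr (Or.inr (Or.inr (Or.inl ⟨h2, h3⟩))))))))))))
  · exact Or.inr (Or.inr (Or.inr (Or.inr (Or.inr (Or.inr (Or.inr (Or.inr (Or.inr (Or.inr (Or.inr (Or.inr (Or.inr (Or.inl ⟨h2, h3⟩)))))))))))))
  · exact Or.inr (Or.inr (Or.inr (Or.inr (Or.inr (Or.inr (Or.inr (Or.inr (Or.inr (Or.inr (Or.inr (Or.inr (Or.inr (Or.inr (Or.inl ⟨h2, h3⟩))))))))))))))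
  · exact Or.inr (Or.inr (Or.inr (Or.inr (Or.inr (Or.inr (Or.inr (Or.inr (Or.inr (Or.inr (Or.inr (Or.inr (Or.inr (Or.inr (Or.inr (Or.inl ⟨h2, h3⟩)))))))))))))))
  · exact Or.inr (Or.inr (Or.inr (Or.inr (Or.inr (Or.inr (Or.inr (Or.inr (Or.inr (Or.inr (Or.inr (Or.inr (Or.inr (Or.inr (Or.inr (Or.inr (Or.inl ⟨h2, h3⟩))))))))))))))))
  · exact Or.inr (Or.inr (Or.inr (Or.inr (Or.inr (Or.inr (Or.inr (Or.inr (Or.inr (Or.inr (Or.inr (Or.inr (Or.inr (Or.inr (Or.inr (Or.inr (Or.inr (Or.inl ⟨h2, h3⟩)))))))))))))))))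
  · exact Or.inr (Or.inr (Or.inr (Or.inr (Or.inr (Or.inr (Or.inr (Or.inr (Or.inr (Or.inr (Or.inr (Or.inr (Or.inr (Or.inr (Or.inr (Or.inr (Or.inr (Or.inr (Or.inl ⟨h2, h3⟩))))))))))))))))))
  · exact Or.inr (Or.inr (Or.inr (Or.inr (Or.inr (Or.inr (Or.inr (Or.inr (Or.inr (Or.inr (Or.inr (Or.inr (Or.inr (Or.inr (Or.inr (Or.inr (Or.inr (Or.inr (Or.inr (Or.inl ⟨h2, h3⟩)))))))))))))))))))
  · exact Or.inr (Or.inr (Or.inr (Or.inr (Or.inr (Or.inr (Or.inr (Or.inr (Or.inr (Or.inr (Or.inr (Or.inr (Or.inr (Or.inr (Or.inr (Or.inr (Or.inr (Or.inr (Or.inr (Or.inr (Or.inl ⟨h2, h3⟩))))))))))))))))))))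
  · exact Or.inr (Or.inr (Or.inr (Or.inr (Or.inr (Or.inr (Or.inr (Or.inr (Or.inr (Or.inr (Or.inr (Or.inr (Or.inr (Or.inr (Or.inr (Or.inr (Or.inr (Or.inr (Or.inr (Or.inr (Or.inr ⟨h2, h3⟩))))))))))))))))))))

theorem surv_e8_24 : surv [2, 8, 12, 14, 18, 20, 24, 30] 120 24 =
    [(24, 0, 2), (24, 0, 4), (24, 1, 2), (24, 1, 4), (24, 2, 4), (24, 3, 3), (24, 4, 5), (24, 5, 4), (24, 6, 0),
    (24, 12, 0), (24, 13, 0), (24, 14, 0), (24, 15, 0), (30, 0, 2), (30, 0, 3), (30, 0, 5), (30, 1, 2), (30, 1,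
    3), (30, 1, 5), (30, 2, 3), (30, 2, 5), (30, 3, 3), (30, 3, 4), (30, 3, 5), (30, 3, 6), (30, 4, 4), (30, 4,
    6), (30, 5, 5), (30, 6, 0), (30, 7, 0), (30, 10, 0), (30, 12, 0), (30, 13, 0), (30, 14, 0), (30, 15, 0)] := by
  decide +kernel

/-- class 24 of `e8`, own characteristic -/
theorem charp_e8_24 (hp : p.Prime) (hf : 1 ≤ f) (hg : Cond g) (hch : HasChar p g) (hc : den g * c = num g)
    (hdvd : c ∣ num (.e8 (p ^ f))) (hz : ZT p f 24 c) :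
    ∃ f₁, 1 ≤ f₁ ∧ (
      (f₁ * 2 = f * 24 ∧ g = .psl 2 (p ^ f₁)) ∨
      (f₁ * 4 = f * 24 ∧ g = .psl 4 (p ^ f₁)) ∨
      (f₁ * 4 = f * 24 ∧ g = .psp 2 (p ^ f₁)) ∨
      (f₁ * 8 = f * 24 ∧ g = .psp 4 (p ^ f₁)) ∨
      (f₁ * 8 = f * 24 ∧ g = .oodd 4 (p ^ f₁)) ∨
      (f₁ * 6 = f * 24 ∧ g = .psu 3 (p ^ f₁)) ∨
      (f₁ * 8 = f * 24 ∧ g = .oplus 5 (p ^ f₁)) ∨
      (f₁ * 8 = f * 24 ∧ g = .ominus 4 (p ^ f₁)) ∨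
      (f₁ * 6 = f * 24 ∧ g = .g2 (p ^ f₁)) ∨
      (f₁ * 12 = f * 24 ∧ g = .td4 (p ^ f₁)) ∨
      (f₁ * 4 = f * 24 ∧ g = .sz (p ^ f₁)) ∨
      (f₁ * 6 = f * 24 ∧ g = .ree (p ^ f₁)) ∨
      (f₁ * 12 = f * 24 ∧ g = .tf4 (p ^ f₁)) ∨
      (f₁ * 2 = f * 30 ∧ g = .psl 2 (p ^ f₁)) ∨
      (f₁ * 3 = f * 30 ∧ g = .psl 3 (p ^ f₁)) ∨
      (f₁ * 5 = f * 30 ∧ g = .psl 5 (p ^ f₁)) ∨
      (f₁ * 4 = f * 30 ∧ g = .psp 2 (p ^ f₁)) ∨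
      (f₁ * 6 = f * 30 ∧ g = .psp 3 (p ^ f₁)) ∨
      (f₁ * 10 = f * 30 ∧ g = .psp 5 (p ^ f₁)) ∨
      (f₁ * 6 = f * 30 ∧ g = .oodd 3 (p ^ f₁)) ∨
      (f₁ * 10 = f * 30 ∧ g = .oodd 5 (p ^ f₁)) ∨
      (f₁ * 6 = f * 30 ∧ g = .psu 3 (p ^ f₁)) ∨
      (f₁ * 6 = f * 30 ∧ g = .psu 4 (p ^ f₁)) ∨
      (f₁ * 10 = f * 30 ∧ g = .psu 5 (p ^ f₁)) ∨
      (f₁ * 10 = f * 30 ∧ g = .psu 6 (p ^ f₁)) ∨
      (f₁ * 6 = f * 30 ∧ g = .oplus 4 (p ^ f₁)) ∨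
      (f₁ * 10 = f * 30 ∧ g = .oplus 6 (p ^ f₁)) ∨
      (f₁ * 10 = f * 30 ∧ g = .ominus 5 (p ^ f₁)) ∨
      (f₁ * 6 = f * 30 ∧ g = .g2 (p ^ f₁)) ∨
      (f₁ * 12 = f * 30 ∧ g = .f4 (p ^ f₁)) ∨
      (f₁ * 30 = f * 30 ∧ g = .e8 (p ^ f₁)) ∨
      (f₁ * 12 = f * 30 ∧ g = .td4 (p ^ f₁)) ∨
      (f₁ * 4 = f * 30 ∧ g = .sz (p ^ f₁)) ∨
      (f₁ * 6 = f * 30 ∧ g = .ree (p ^ f₁)) ∨
      (f₁ * 12 = f * 30 ∧ g = .tf4 (p ^ f₁))) := by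
  obtain ⟨x, hx, f₁, h1, h2, h3⟩ := engine (XT := [2, 8, 12, 14, 18, 20, 24, 30]) (MT := 30) (aT := 120) (e := 24) hp hf hg hch hc
    (td_e8 hp hf hdvd) (by norm_num) (by norm_num) hz
  rw [surv_e8_24] at hx
  simp only [List.mem_cons, List.not_mem_nil, or_false] at hx
  refine ⟨f₁, h1, ?_⟩
  rcases hx with rfl | rfl | rfl | rfl | rfl | rfl | rfl | rfl | rfl | rfl | rfl | rfl | rfl | rfl | rfl | rfl | rfl | rfl | rfl | rfl | rfl | rfl | rfl | rfl | rfl | rfl | rfl | rfl | rfl | rfl | rfl | rfl | rfl | rfl | rfl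
  · exact Or.inl ⟨h2, h3⟩
  · exact Or.inr (Or.inl ⟨h2, h3⟩)
  · exact Or.inr (Or.inr (Or.inl ⟨h2, h3⟩))
  · exact Or.inr (Or.inr (Or.inr (Or.inl ⟨h2, h3⟩)))
  · exact Or.inr (Or.inr (Or.inr (Or.inr (Or.inl ⟨h2, h3⟩))))
  · exact Or.inr (Or.inr (Or.inr (Or.inr (Or.inr (Or.inl ⟨h2, h3⟩)))))
  · exact Or.inr (Or.inr (Or.inr (Or.inr (Or.inr (Or.inr (Or.inl ⟨h2, h3⟩))))))
  · exact Or.inr (Or.inr (Or.inr (Or.inr (Or.inr (Or.inr (Or.inr (Or.inl ⟨h2, h3⟩)))))))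
  · exact Or.inr (Or.inr (Or.inr (Or.inr (Or.inr (Or.inr (Or.inr (Or.inr (Or.inl ⟨h2, h3⟩))))))))
  · exact Or.inr (Or.inr (Or.inr (Or.inr (Or.inr (Or.inr (Or.inr (Or.inr (Or.inr (Or.inl ⟨h2, h3⟩)))))))))
  · exact Or.inr (Or.inr (Or.inr (Or.inr (Or.inr (Or.inr (Or.inr (Or.inr (Or.inr (Or.inr (Or.inl ⟨h2, h3⟩))))))))))
  · exact Or.inr (Or.inr (Or.inr (Or.inr (Or.inr (Or.inr (Or.inr (Or.inr (Or.inr (Or.inr (Or.inr (Or.inl ⟨h2, h3⟩)))))))))))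
  · exact Or.inr (Or.inr (Or.inr (Or.inr (Or.inr (Or.inr (Or.inr (Or.inr (Or.inr (Or.inr (Or.inr (Or.inr (Or.inl ⟨h2, h3⟩))))))))))))
  · exact Or.inr (Or.inr (Or.inr (Or.inr (Or.inr (Or.inr (Or.inr (Or.inr (Or.inr (Or.inr (Or.inr (Or.inr (Or.inr (Or.inl ⟨h2, h3⟩)))))))))))))
  · exact Or.inr (Or.inr (Or.inr (Or.inr (Or.inr (Or.inr (Or.inr (Or.inr (Or.inr (Or.inr (Or.inr (Or.inr (Or.inr (Or.inr (Or.inl ⟨h2, h3⟩))))))))))))))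
  · exact Or.inr (Or.inr (Or.inr (Or.inr (Or.inr (Or.inr (Or.inr (Or.inr (Or.inr (Or.inr (Or.inr (Or.inr (Or.inr (Or.inr (Or.inr (Or.inl ⟨h2, h3⟩)))))))))))))))
  · exact Or.inr (Or.inr (Or.inr (Or.inr (Or.inr (Or.inr (Or.inr (Or.inr (Or.inr (Or.inr (Or.inr (Or.inr (Or.inr (Or.inr (Or.inr (Or.inr (Or.inl ⟨h2, h3⟩))))))))))))))))
  · exact Or.inr (Or.inr (Or.inr (Or.inr (Or.inr (Or.inr (Or.inr (Or.inr (Or.inr (Or.inr (Or.inr (Or.inr (Or.inr (Or.inr (Or.inr (Or.inr (Or.inr (Or.inl ⟨h2, h3⟩)))))))))))))))))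
  · exact Or.inr (Or.inr (Or.inr (Or.inr (Or.inr (Or.inr (Or.inr (Or.inr (Or.inr (Or.inr (Or.inr (Or.inr (Or.inr (Or.inr (Or.inr (Or.inr (Or.inr (Or.inr (Or.inl ⟨h2, h3⟩))))))))))))))))))
  · exact Or.inr (Or.inr (Or.inr (Or.inr (Or.inr (Or.inr (Or.inr (Or.inr (Or.inr (Or.inr (Or.inr (Or.inr (Or.inr (Or.inr (Or.inr (Or.inr (Or.inr (Or.inr (Or.inr (Or.inl ⟨h2, h3⟩)))))))))))))))))))
  · exact Or.inr (Or.inr (Or.inr (Or.inr (Or.inr (Or.inr (Or.inr (Or.inr (Or.inr (Or.inr (Or.inr (Or.inr (Or.inr (Or.inr (Or.inr (Or.inr (Or.inr (Or.inr (Or.inr (Or.inr (Or.inl ⟨h2, h3⟩))))))))))))))))))))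
  · exact Or.inr (Or.inr (Or.inr (Or.inr (Or.inr (Or.inr (Or.inr (Or.inr (Or.inr (Or.inr (Or.inr (Or.inr (Or.inr (Or.inr (Or.inr (Or.inr (Or.inr (Or.inr (Or.inr (Or.inr (Or.inr (Or.inl ⟨h2, h3⟩)))))))))))))))))))))
  · exact Or.inr (Or.inr (Or.inr (Or.inr (Or.inr (Or.inr (Or.inr (Or.inr (Or.inr (Or.inr (Or.inr (Or.inr (Or.inr (Or.inr (Or.inr (Or.inr (Or.inr (Or.inr (Or.inr (Or.inr (Or.inr (Or.inr (Or.inl ⟨h2, h3⟩))))))))))))))))))))))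
  · exact Or.inr (Or.inr (Or.inr (Or.inr (Or.inr (Or.inr (Or.inr (Or.inr (Or.inr (Or.inr (Or.inr (Or.inr (Or.inr (Or.inr (Or.inr (Or.inr (Or.inr (Or.inr (Or.inr (Or.inr (Or.inr (Or.inr (Or.inr (Or.inl ⟨h2, h3⟩)))))))))))))))))))))))
  · exact Or.inr (Or.inr (Or.inr (Or.inr (Or.inr (Or.inr (Or.inr (Or.inr (Or.inr (Or.inr (Or.inr (Or.inr (Or.inr (Or.inr (Or.inr (Or.inr (Or.inr (Or.inr (Or.inr (Or.inr (Or.inr (Or.inr (Or.inr (Or.inr (Or.inl ⟨h2, h3⟩))))))))))))))))))))))))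
  · exact Or.inr (Or.inr (Or.inr (Or.inr (Or.inr (Or.inr (Or.inr (Or.inr (Or.inr (Or.inr (Or.inr (Or.inr (Or.inr (Or.inr (Or.inr (Or.inr (Or.inr (Or.inr (Or.inr (Or.inr (Or.inr (Or.inr (Or.inr (Or.inr (Or.inr (Or.inl ⟨h2, h3⟩)))))))))))))))))))))))))
  · exact Or.inr (Or.inr (Or.inr (Or.inr (Or.inr (Or.inr (Or.inr (Or.inr (Or.inr (Or.inr (Or.inr (Or.inr (Or.inr (Or.inr (Or.inr (Or.inr (Or.inr (Or.inr (Or.inr (Or.inr (Or.inr (Or.inr (Or.inr (Or.inr (Or.inr (Or.inr (Or.inl ⟨h2, h3⟩))))))))))))))))))))))))))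
  · exact Or.inr (Or.inr (Or.inr (Or.inr (Or.inr (Or.inr (Or.inr (Or.inr (Or.inr (Or.inr (Or.inr (Or.inr (Or.inr (Or.inr (Or.inr (Or.inr (Or.inr (Or.inr (Or.inr (Or.inr (Or.inr (Or.inr (Or.inr (Or.inr (Or.inr (Or.inr (Or.inr (Or.inl ⟨h2, h3⟩)))))))))))))))))))))))))))
  · exact Or.inr (Or.inr (Or.inr (Or.inr (Or.inr (Or.inr (Or.inr (Or.inr (Or.inr (Or.inr (Or.inr (Or.inr (Or.inr (Or.inr (Or.inr (Or.inr (Or.inr (Or.inr (Or.inr (Or.inr (Or.inr (Or.inr (Or.inr (Or.inr (Or.inr (Or.inr (Or.inr (Or.inr (Or.inl ⟨h2, h3⟩))))))))))))))))))))))))))))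
  · exact Or.inr (Or.inr (Or.inr (Or.inr (Or.inr (Or.inr (Or.inr (Or.inr (Or.inr (Or.inr (Or.inr (Or.inr (Or.inr (Or.inr (Or.inr (Or.inr (Or.inr (Or.inr (Or.inr (Or.inr (Or.inr (Or.inr (Or.inr (Or.inr (Or.inr (Or.inr (Or.inr (Or.inr (Or.inr (Or.inl ⟨h2, h3⟩)))))))))))))))))))))))))))))
  · exact Or.inr (Or.inr (Or.inr (Or.inr (Or.inr (Or.inr (Or.inr (Or.inr (Or.inr (Or.inr (Or.inr (Or.inr (Or.inr (Or.inr (Or.inr (Or.inr (Or.inr (Or.inr (Or.inr (Or.inr (Or.inr (Or.inr (Or.inr (Or.inr (Or.inr (Or.inr (Or.inr (Or.inr (Or.inr (Or.inr (Or.inl ⟨h2, h3⟩))))))))))))))))))))))))))))))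
  · exact Or.inr (Or.inr (Or.inr (Or.inr (Or.inr (Or.inr (Or.inr (Or.inr (Or.inr (Or.inr (Or.inr (Or.inr (Or.inr (Or.inr (Or.inr (Or.inr (Or.inr (Or.inr (Or.inr (Or.inr (Or.inr (Or.inr (Or.inr (Or.inr (Or.inr (Or.inr (Or.inr (Or.inr (Or.inr (Or.inr (Or.inr (Or.inl ⟨h2, h3⟩)))))))))))))))))))))))))))))))
  · exact Or.inr (Or.inr (Or.inr (Or.inr (Or.inr (Or.inr (Or.inr (Or.inr (Or.inr (Or.inr (Or.inr (Or.inr (Or.inr (Or.inr (Or.inr (Or.inr (Or.inr (Or.inr (Or.inr (Or.inr (Or.inr (Or.inr (Or.inr (Or.inr (Or.inr (Or.inr (Or.inr (Or.inr (Or.inr (Or.inr (Or.inr (Or.inr (Or.inl ⟨h2, h3⟩))))))))))))))))))))))))))))))))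
  · exact Or.inr (Or.inr (Or.inr (Or.inr (Or.inr (Or.inr (Or.inr (Or.inr (Or.inr (Or.inr (Or.inr (Or.inr (Or.inr (Or.inr (Or.inr (Or.inr (Or.inr (Or.inr (Or.inr (Or.inr (Or.inr (Or.inr (Or.inr (Or.inr (Or.inr (Or.inr (Or.inr (Or.inr (Or.inr (Or.inr (Or.inr (Or.inr (Or.inr (Or.inl ⟨h2, h3⟩)))))))))))))))))))))))))))))))))
  · exact Or.inr (Or.inr (Or.inr (Or.inr (Or.inr (Or.inr (Or.inr (Or.inr (Or.inr (Or.inr (Or.inr (Or.inr (Or.inr (Or.inr (Or.inr (Or.inr (Or.inr (Or.inr (Or.inr (Or.inr (Or.inr (Or.inr (Or.inr (Or.inr (Or.inr (Or.inr (Or.inr (Or.inr (Or.inr (Or.inr (Or.inr (Or.inr (Or.inr (Or.inr ⟨h2, h3⟩)))))))))))))))))))))))))))))))))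

theorem surv_e7_18 : surv [2, 6, 8, 10, 12, 14, 18] 63 18 =
    [(18, 0, 2), (18, 0, 3), (18, 1, 2), (18, 1, 3), (18, 2, 3), (18, 3, 3), (18, 3, 4), (18, 3, 9), (18, 3, 10),
    (18, 4, 4), (18, 6, 0), (18, 7, 0), (18, 9, 0), (18, 11, 0), (18, 12, 0), (18, 13, 0), (18, 14, 0), (18, 15,
    0)] := by
  decide +kernel

/-- class 18 of `e7`, own characteristic -/
theorem charp_e7_18 (hp : p.Prime) (hf : 1 ≤ f) (hg : Cond g) (hch : HasChar p g) (hc : den g * c = num g)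
    (hdvd : c ∣ num (.e7 (p ^ f))) (hz : ZT p f 18 c) :
    ∃ f₁, 1 ≤ f₁ ∧ (
      (f₁ * 2 = f * 18 ∧ g = .psl 2 (p ^ f₁)) ∨
      (f₁ * 3 = f * 18 ∧ g = .psl 3 (p ^ f₁)) ∨
      (f₁ * 4 = f * 18 ∧ g = .psp 2 (p ^ f₁)) ∨
      (f₁ * 6 = f * 18 ∧ g = .psp 3 (p ^ f₁)) ∨
      (f₁ * 6 = f * 18 ∧ g = .oodd 3 (p ^ f₁)) ∨
      (f₁ * 6 = f * 18 ∧ g = .psu 3 (p ^ f₁)) ∨
      (f₁ * 6 = f * 18 ∧ g = .psu 4 (p ^ f₁)) ∨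
      (f₁ * 18 = f * 18 ∧ g = .psu 9 (p ^ f₁)) ∨
      (f₁ * 18 = f * 18 ∧ g = .psu 10 (p ^ f₁)) ∨
      (f₁ * 6 = f * 18 ∧ g = .oplus 4 (p ^ f₁)) ∨
      (f₁ * 6 = f * 18 ∧ g = .g2 (p ^ f₁)) ∨
      (f₁ * 12 = f * 18 ∧ g = .f4 (p ^ f₁)) ∨
      (f₁ * 18 = f * 18 ∧ g = .e7 (p ^ f₁)) ∨
      (f₁ * 18 = f * 18 ∧ g = .te6 (p ^ f₁)) ∨
      (f₁ * 12 = f * 18 ∧ g = .td4 (p ^ f₁)) ∨
      (f₁ * 4 = f * 18 ∧ g = .sz (p ^ f₁)) ∨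
      (f₁ * 6 = f * 18 ∧ g = .ree (p ^ f₁)) ∨
      (f₁ * 12 = f * 18 ∧ g = .tf4 (p ^ f₁))) := by
  obtain ⟨x, hx, f₁, h1, h2, h3⟩ := engine (XT := [2, 6, 8, 10, 12, 14, 18]) (MT := 18) (aT := 63) (e := 18) hp hf hg hch hc
    (td_e7 hp hf hdvd) (by norm_num) (by norm_num) hz
  rw [surv_e7_18] at hx
  simp only [List.mem_cons, List.not_mem_nil, or_false] at hx
  refine ⟨f₁, h1, ?_⟩
  rcases hx with rfl | rfl | rfl | rfl | rfl | rfl | rfl | rfl | rfl | rfl | rfl | rfl | rfl | rfl | rfl | rfl | rfl | rfl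
  · exact Or.inl ⟨h2, h3⟩
  · exact Or.inr (Or.inl ⟨h2, h3⟩)
  · exact Or.inr (Or.inr (Or.inl ⟨h2, h3⟩))
  · exact Or.inr (Or.inr (Or.inr (Or.inl ⟨h2, h3⟩)))
  · exact Or.inr (Or.inr (Or.inr (Or.inr (Or.inl ⟨h2, h3⟩))))
  · exact Or.inr (Or.inr (Or.inr (Or.inr (Or.inr (Or.inl ⟨h2, h3⟩)))))
  · exact Or.inr (Or.inr (Or.inr (Or.inr (Or.inr (Or.inr (Or.inl ⟨h2, h3⟩))))))
  · exact Or.inr (Or.inr (Or.inr (Or.inr (Or.inr (Or.inr (Or.inr (Or.inl ⟨h2, h3⟩)))))))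
  · exact Or.inr (Or.inr (Or.inr (Or.inr (Or.inr (Or.inr (Or.inr (Or.inr (Or.inl ⟨h2, h3⟩))))))))
  · exact Or.inr (Or.inr (Or.inr (Or.inr (Or.inr (Or.inr (Or.inr (Or.inr (Or.inr (Or.inl ⟨h2, h3⟩)))))))))
  · exact Or.inr (Or.inr (Or.inr (Or.inr (Or.inr (Or.inr (Or.inr (Or.inr (Or.inr (Or.inr (Or.inl ⟨h2, h3⟩))))))))))
  · exact Or.inr (Or.inr (Or.inr (Or.inr (Or.inr (Or.inr (Or.inr (Or.inr (Or.inr (Or.inr (Or.inr (Or.inl ⟨h2, h3⟩)))))))))))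
  · exact Or.inr (Or.inr (Or.inr (Or.inr (Or.inr (Or.inr (Or.inr (Or.inr (Or.inr (Or.inr (Or.inr (Or.inr (Or.inl ⟨h2, h3⟩))))))))))))
  · exact Or.inr (Or.inr (Or.inr (Or.inr (Or.inr (Or.inr (Or.inr (Or.inr (Or.inr (Or.inr (Or.inr (Or.inr (Or.inr (Or.inl ⟨h2, h3⟩)))))))))))))
  · exact Or.inr (Or.inr (Or.inr (Or.inr (Or.inr (Or.inr (Or.inr (Or.inr (Or.inr (Or.inr (Or.inr (Or.inr (Or.inr (Or.inr (Or.inl ⟨h2, h3⟩))))))))))))))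
  · exact Or.inr (Or.inr (Or.inr (Or.inr (Or.inr (Or.inr (Or.inr (Or.inr (Or.inr (Or.inr (Or.inr (Or.inr (Or.inr (Or.inr (Or.inr (Or.inl ⟨h2, h3⟩)))))))))))))))
  · exact Or.inr (Or.inr (Or.inr (Or.inr (Or.inr (Or.inr (Or.inr (Or.inr (Or.inr (Or.inr (Or.inr (Or.inr (Or.inr (Or.inr (Or.inr (Or.inr (Or.inl ⟨h2, h3⟩))))))))))))))))
  · exact Or.inr (Or.inr (Or.inr (Or.inr (Or.inr (Or.inr (Or.inr (Or.inr (Or.inr (Or.inr (Or.inr (Or.inr (Or.inr (Or.inr (Or.inr (Or.inr (Or.inr ⟨h2, h3⟩))))))))))))))))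

theorem surv_e7_14 : surv [2, 6, 8, 10, 12, 14, 18] 63 14 =
    [(14, 0, 2), (14, 0, 7), (14, 1, 2), (14, 1, 7), (14, 2, 7), (14, 3, 3), (14, 3, 7), (14, 3, 8), (14, 4, 8),
    (14, 5, 7), (14, 6, 0), (14, 12, 0), (14, 13, 0), (14, 14, 0), (14, 15, 0), (18, 0, 2), (18, 0, 3), (18, 1,
    2), (18, 1, 3), (18, 2, 3), (18, 3, 3), (18, 3, 4), (18, 3, 9), (18, 3, 10), (18, 4, 4), (18, 6, 0), (18, 7,
    0), (18, 9, 0), (18, 11, 0), (18, 12, 0), (18, 13, 0), (18, 14, 0), (18, 15, 0)] := by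
  decide +kernel

/-- class 14 of `e7`, own characteristic -/
theorem charp_e7_14 (hp : p.Prime) (hf : 1 ≤ f) (hg : Cond g) (hch : HasChar p g) (hc : den g * c = num g)
    (hdvd : c ∣ num (.e7 (p ^ f))) (hz : ZT p f 14 c) :
    ∃ f₁, 1 ≤ f₁ ∧ (
      (f₁ * 2 = f * 14 ∧ g = .psl 2 (p ^ f₁)) ∨
      (f₁ * 7 = f * 14 ∧ g = .psl 7 (p ^ f₁)) ∨
      (f₁ * 4 = f * 14 ∧ g = .psp 2 (p ^ f₁)) ∨
      (f₁ * 14 = f * 14 ∧ g = .psp 7 (p ^ f₁)) ∨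
      (f₁ * 14 = f * 14 ∧ g = .oodd 7 (p ^ f₁)) ∨
      (f₁ * 6 = f * 14 ∧ g = .psu 3 (p ^ f₁)) ∨
      (f₁ * 14 = f * 14 ∧ g = .psu 7 (p ^ f₁)) ∨
      (f₁ * 14 = f * 14 ∧ g = .psu 8 (p ^ f₁)) ∨
      (f₁ * 14 = f * 14 ∧ g = .oplus 8 (p ^ f₁)) ∨
      (f₁ * 14 = f * 14 ∧ g = .ominus 7 (p ^ f₁)) ∨
      (f₁ * 6 = f * 14 ∧ g = .g2 (p ^ f₁)) ∨
      (f₁ * 12 = f * 14 ∧ g = .td4 (p ^ f₁)) ∨
      (f₁ * 4 = f * 14 ∧ g = .sz (p ^ f₁)) ∨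
      (f₁ * 6 = f * 14 ∧ g = .ree (p ^ f₁)) ∨
      (f₁ * 12 = f * 14 ∧ g = .tf4 (p ^ f₁)) ∨
      (f₁ * 2 = f * 18 ∧ g = .psl 2 (p ^ f₁)) ∨
      (f₁ * 3 = f * 18 ∧ g = .psl 3 (p ^ f₁)) ∨
      (f₁ * 4 = f * 18 ∧ g = .psp 2 (p ^ f₁)) ∨
      (f₁ * 6 = f * 18 ∧ g = .psp 3 (p ^ f₁)) ∨
      (f₁ * 6 = f * 18 ∧ g = .oodd 3 (p ^ f₁)) ∨
      (f₁ * 6 = f * 18 ∧ g = .psu 3 (p ^ f₁)) ∨
      (f₁ * 6 = f * 18 ∧ g = .psu 4 (p ^ f₁)) ∨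
      (f₁ * 18 = f * 18 ∧ g = .psu 9 (p ^ f₁)) ∨
      (f₁ * 18 = f * 18 ∧ g = .psu 10 (p ^ f₁)) ∨
      (f₁ * 6 = f * 18 ∧ g = .oplus 4 (p ^ f₁)) ∨
      (f₁ * 6 = f * 18 ∧ g = .g2 (p ^ f₁)) ∨
      (f₁ * 12 = f * 18 ∧ g = .f4 (p ^ f₁)) ∨
      (f₁ * 18 = f * 18 ∧ g = .e7 (p ^ f₁)) ∨
      (f₁ * 18 = f * 18 ∧ g = .te6 (p ^ f₁)) ∨
      (f₁ * 12 = f * 18 ∧ g = .td4 (p ^ f₁)) ∨
      (f₁ * 4 = f * 18 ∧ g = .sz (p ^ f₁)) ∨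
      (f₁ * 6 = f * 18 ∧ g = .ree (p ^ f₁)) ∨
      (f₁ * 12 = f * 18 ∧ g = .tf4 (p ^ f₁))) := by
  obtain ⟨x, hx, f₁, h1, h2, h3⟩ := engine (XT := [2, 6, 8, 10, 12, 14, 18]) (MT := 18) (aT := 63) (e := 14) hp hf hg hch hc
    (td_e7 hp hf hdvd) (by norm_num) (by norm_num) hz
  rw [surv_e7_14] at hx
  simp only [List.mem_cons, List.not_mem_nil, or_false] at hx
  refine ⟨f₁, h1, ?_⟩
  rcases hx with rfl | rfl | rfl | rfl | rfl | rfl | rfl | rfl | rfl | rfl | rfl | rfl | rfl | rfl | rfl | rfl | rfl | rfl | rfl | rfl | rfl | rfl | rfl | rfl | rfl | rfl | rfl | rfl | rfl | rfl | rfl | rfl | rfl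
  · exact Or.inl ⟨h2, h3⟩
  · exact Or.inr (Or.inl ⟨h2, h3⟩)
  · exact Or.inr (Or.inr (Or.inl ⟨h2, h3⟩))
  · exact Or.inr (Or.inr (Or.inr (Or.inl ⟨h2, h3⟩)))
  · exact Or.inr (Or.inr (Or.inr (Or.inr (Or.inl ⟨h2, h3⟩))))
  · exact Or.inr (Or.inr (Or.inr (Or.inr (Or.inr (Or.inl ⟨h2, h3⟩)))))
  · exact Or.inr (Or.inr (Or.inr (Or.inr (Or.inr (Or.inr (Or.inl ⟨h2, h3⟩))))))
  · exact Or.inr (Or.inr (Or.inr (Or.inr (Or.inr (Or.inr (Or.inr (Or.inl ⟨h2, h3⟩)))))))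
  · exact Or.inr (Or.inr (Or.inr (Or.inr (Or.inr (Or.inr (Or.inr (Or.inr (Or.inl ⟨h2, h3⟩))))))))
  · exact Or.inr (Or.inr (Or.inr (Or.inr (Or.inr (Or.inr (Or.inr (Or.inr (Or.inr (Or.inl ⟨h2, h3⟩)))))))))
  · exact Or.inr (Or.inr (Or.inr (Or.inr (Or.inr (Or.inr (Or.inr (Or.inr (Or.inr (Or.inr (Or.inl ⟨h2, h3⟩))))))))))
  · exact Or.inr (Or.inr (Or.inr (Or.inr (Or.inr (Or.inr (Or.inr (Or.inr (Or.inr (Or.inr (Or.inr (Or.inl ⟨h2, h3⟩)))))))))))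
  · exact Or.inr (Or.inr (Or.inr (Or.inr (Or.inr (Or.inr (Or.inr (Or.inr (Or.inr (Or.inr (Or.inr (Or.inr (Or.inl ⟨h2, h3⟩))))))))))))
  · exact Or.inr (Or.inr (Or.inr (Or.inr (Or.inr (Or.inr (Or.inr (Or.inr (Or.inr (Or.inr (Or.inr (Or.inr (Or.inr (Or.inl ⟨h2, h3⟩)))))))))))))
  · exact Or.inr (Or.inr (Or.inr (Or.inr (Or.inr (Or.inr (Or.inr (Or.inr (Or.inr (Or.inr (Or.inr (Or.inr (Or.inr (Or.inr (Or.inl ⟨h2, h3⟩))))))))))))))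
  · exact Or.inr (Or.inr (Or.inr (Or.inr (Or.inr (Or.inr (Or.inr (Or.inr (Or.inr (Or.inr (Or.inr (Or.inr (Or.inr (Or.inr (Or.inr (Or.inl ⟨h2, h3⟩)))))))))))))))
  · exact Or.inr (Or.inr (Or.inr (Or.inr (Or.inr (Or.inr (Or.inr (Or.inr (Or.inr (Or.inr (Or.inr (Or.inr (Or.inr (Or.inr (Or.inr (Or.inr (Or.inl ⟨h2, h3⟩))))))))))))))))
  · exact Or.inr (Or.inr (Or.inr (Or.inr (Or.inr (Or.inr (Or.inr (Or.inr (Or.inr (Or.inr (Or.inr (Or.inr (Or.inr (Or.inr (Or.inr (Or.inr (Or.inr (Or.inl ⟨h2, h3⟩)))))))))))))))))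
  · exact Or.inr (Or.inr (Or.inr (Or.inr (Or.inr (Or.inr (Or.inr (Or.inr (Or.inr (Or.inr (Or.inr (Or.inr (Or.inr (Or.inr (Or.inr (Or.inr (Or.inr (Or.inr (Or.inl ⟨h2, h3⟩))))))))))))))))))
  · exact Or.inr (Or.inr (Or.inr (Or.inr (Or.inr (Or.inr (Or.inr (Or.inr (Or.inr (Or.inr (Or.inr (Or.inr (Or.inr (Or.inr (Or.inr (Or.inr (Or.inr (Or.inr (Or.inr (Or.inl ⟨h2, h3⟩)))))))))))))))))))
  · exact Or.inr (Or.inr (Or.inr (Or.inr (Or.inr (Or.inr (Or.inr (Or.inr (Or.inr (Or.inr (Or.inr (Or.inr (Or.inr (Or.inr (Or.inr (Or.inr (Or.inr (Or.inr (Or.inr (Or.inr (Or.inl ⟨h2, h3⟩))))))))))))))))))))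
  · exact Or.inr (Or.inr (Or.inr (Or.inr (Or.inr (Or.inr (Or.inr (Or.inr (Or.inr (Or.inr (Or.inr (Or.inr (Or.inr (Or.inr (Or.inr (Or.inr (Or.inr (Or.inr (Or.inr (Or.inr (Or.inr (Or.inl ⟨h2, h3⟩)))))))))))))))))))))
  · exact Or.inr (Or.inr (Or.inr (Or.inr (Or.inr (Or.inr (Or.inr (Or.inr (Or.inr (Or.inr (Or.inr (Or.inr (Or.inr (Or.inr (Or.inr (Or.inr (Or.inr (Or.inr (Or.inr (Or.inr (Or.inr (Or.inr (Or.inl ⟨h2, h3⟩))))))))))))))))))))))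
  · exact Or.inr (Or.inr (Or.inr (Or.inr (Or.inr (Or.inr (Or.inr (Or.inr (Or.inr (Or.inr (Or.inr (Or.inr (Or.inr (Or.inr (Or.inr (Or.inr (Or.inr (Or.inr (Or.inr (Or.inr (Or.inr (Or.inr (Or.inr (Or.inl ⟨h2, h3⟩)))))))))))))))))))))))
  · exact Or.inr (Or.inr (Or.inr (Or.inr (Or.inr (Or.inr (Or.inr (Or.inr (Or.inr (Or.inr (Or.inr (Or.inr (Or.inr (Or.inr (Or.inr (Or.inr (Or.inr (Or.inr (Or.inr (Or.inr (Or.inr (Or.inr (Or.inr (Or.inr (Or.inl ⟨h2, h3⟩))))))))))))))))))))))))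
  · exact Or.inr (Or.inr (Or.inr (Or.inr (Or.inr (Or.inr (Or.inr (Or.inr (Or.inr (Or.inr (Or.inr (Or.inr (Or.inr (Or.inr (Or.inr (Or.inr (Or.inr (Or.inr (Or.inr (Or.inr (Or.inr (Or.inr (Or.inr (Or.inr (Or.inr (Or.inl ⟨h2, h3⟩)))))))))))))))))))))))))
  · exact Or.inr (Or.inr (Or.inr (Or.inr (Or.inr (Or.inr (Or.inr (Or.inr (Or.inr (Or.inr (Or.inr (Or.inr (Or.inr (Or.inr (Or.inr (Or.inr (Or.inr (Or.inr (Or.inr (Or.inr (Or.inr (Or.inr (Or.inr (Or.inr (Or.inr (Or.inr (Or.inl ⟨h2, h3⟩))))))))))))))))))))))))))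
  · exact Or.inr (Or.inr (Or.inr (Or.inr (Or.inr (Or.inr (Or.inr (Or.inr (Or.inr (Or.inr (Or.inr (Or.inr (Or.inr (Or.inr (Or.inr (Or.inr (Or.inr (Or.inr (Or.inr (Or.inr (Or.inr (Or.inr (Or.inr (Or.inr (Or.inr (Or.inr (Or.inr (Or.inl ⟨h2, h3⟩)))))))))))))))))))))))))))
  · exact Or.inr (Or.inr (Or.inr (Or.inr (Or.inr (Or.inr (Or.inr (Or.inr (Or.inr (Or.inr (Or.inr (Or.inr (Or.inr (Or.inr (Or.inr (Or.inr (Or.inr (Or.inr (Or.inr (Or.inr (Or.inr (Or.inr (Or.inr (Or.inr (Or.inr (Or.inr (Or.inr (Or.inr (Or.inl ⟨h2, h3⟩))))))))))))))))))))))))))))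
  · exact Or.inr (Or.inr (Or.inr (Or.inr (Or.inr (Or.inr (Or.inr (Or.inr (Or.inr (Or.inr (Or.inr (Or.inr (Or.inr (Or.inr (Or.inr (Or.inr (Or.inr (Or.inr (Or.inr (Or.inr (Or.inr (Or.inr (Or.inr (Or.inr (Or.inr (Or.inr (Or.inr (Or.inr (Or.inr (Or.inl ⟨h2, h3⟩)))))))))))))))))))))))))))))
  · exact Or.inr (Or.inr (Or.inr (Or.inr (Or.inr (Or.inr (Or.inr (Or.inr (Or.inr (Or.inr (Or.inr (Or.inr (Or.inr (Or.inr (Or.inr (Or.inr (Or.inr (Or.inr (Or.inr (Or.inr (Or.inr (Or.inr (Or.inr (Or.inr (Or.inr (Or.inr (Or.inr (Or.inr (Or.inr (Or.inr (Or.inl ⟨h2, h3⟩))))))))))))))))))))))))))))))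
  · exact Or.inr (Or.inr (Or.inr (Or.inr (Or.inr (Or.inr (Or.inr (Or.inr (Or.inr (Or.inr (Or.inr (Or.inr (Or.inr (Or.inr (Or.inr (Or.inr (Or.inr (Or.inr (Or.inr (Or.inr (Or.inr (Or.inr (Or.inr (Or.inr (Or.inr (Or.inr (Or.inr (Or.inr (Or.inr (Or.inr (Or.inr (Or.inl ⟨h2, h3⟩)))))))))))))))))))))))))))))))
  · exact Or.inr (Or.inr (Or.inr (Or.inr (Or.inr (Or.inr (Or.inr (Or.inr (Or.inr (Or.inr (Or.inr (Or.inr (Or.inr (Or.inr (Or.inr (Or.inr (Or.inr (Or.inr (Or.inr (Or.inr (Or.inr (Or.inr (Or.inr (Or.inr (Or.inr (Or.inr (Or.inr (Or.inr (Or.inr (Or.inr (Or.inr (Or.inr ⟨h2, h3⟩)))))))))))))))))))))))))))))))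

theorem surv_e6_12 : surv [2, 5, 6, 8, 9, 12] 36 12 =
    [(12, 0, 2), (12, 0, 3), (12, 0, 4), (12, 1, 2), (12, 1, 3), (12, 1, 4), (12, 2, 3), (12, 2, 4), (12, 3, 3),
    (12, 3, 4), (12, 4, 4), (12, 4, 5), (12, 5, 4), (12, 6, 0), (12, 7, 0), (12, 8, 0), (12, 12, 0), (12, 13, 0),
    (12, 14, 0), (12, 15, 0)] := by
  decide +kernel

/-- class 12 of `e6`, own characteristic -/
theorem charp_e6_12 (hp : p.Prime) (hf : 1 ≤ f) (hg : Cond g) (hch : HasChar p g) (hc : den g * c = num g)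
    (hdvd : c ∣ num (.e6 (p ^ f))) (hz : ZT p f 12 c) :
    ∃ f₁, 1 ≤ f₁ ∧ (
      (f₁ * 2 = f * 12 ∧ g = .psl 2 (p ^ f₁)) ∨
      (f₁ * 3 = f * 12 ∧ g = .psl 3 (p ^ f₁)) ∨
      (f₁ * 4 = f * 12 ∧ g = .psl 4 (p ^ f₁)) ∨
      (f₁ * 4 = f * 12 ∧ g = .psp 2 (p ^ f₁)) ∨
      (f₁ * 6 = f * 12 ∧ g = .psp 3 (p ^ f₁)) ∨
      (f₁ * 8 = f * 12 ∧ g = .psp 4 (p ^ f₁)) ∨
      (f₁ * 6 = f * 12 ∧ g = .oodd 3 (p ^ f₁)) ∨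
      (f₁ * 8 = f * 12 ∧ g = .oodd 4 (p ^ f₁)) ∨
      (f₁ * 6 = f * 12 ∧ g = .psu 3 (p ^ f₁)) ∨
      (f₁ * 6 = f * 12 ∧ g = .psu 4 (p ^ f₁)) ∨
      (f₁ * 6 = f * 12 ∧ g = .oplus 4 (p ^ f₁)) ∨
      (f₁ * 8 = f * 12 ∧ g = .oplus 5 (p ^ f₁)) ∨
      (f₁ * 8 = f * 12 ∧ g = .ominus 4 (p ^ f₁)) ∨
      (f₁ * 6 = f * 12 ∧ g = .g2 (p ^ f₁)) ∨
      (f₁ * 12 = f * 12 ∧ g = .f4 (p ^ f₁)) ∨
      (f₁ * 12 = f * 12 ∧ g = .e6 (p ^ f₁)) ∨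
      (f₁ * 12 = f * 12 ∧ g = .td4 (p ^ f₁)) ∨
      (f₁ * 4 = f * 12 ∧ g = .sz (p ^ f₁)) ∨
      (f₁ * 6 = f * 12 ∧ g = .ree (p ^ f₁)) ∨
      (f₁ * 12 = f * 12 ∧ g = .tf4 (p ^ f₁))) := by
  obtain ⟨x, hx, f₁, h1, h2, h3⟩ := engine (XT := [2, 5, 6, 8, 9, 12]) (MT := 12) (aT := 36) (e := 12) hp hf hg hch hc
    (td_e6 hp hf hdvd) (by norm_num) (by norm_num) hz
  rw [surv_e6_12] at hx
  simp only [List.mem_cons, List.not_mem_nil, or_false] at hx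
  refine ⟨f₁, h1, ?_⟩
  rcases hx with rfl | rfl | rfl | rfl | rfl | rfl | rfl | rfl | rfl | rfl | rfl | rfl | rfl | rfl | rfl | rfl | rfl | rfl | rfl | rfl
  · exact Or.inl ⟨h2, h3⟩
  · exact Or.inr (Or.inl ⟨h2, h3⟩)
  · exact Or.inr (Or.inr (Or.inl ⟨h2, h3⟩))
  · exact Or.inr (Or.inr (Or.inr (Or.inl ⟨h2, h3⟩)))
  · exact Or.inr (Or.inr (Or.inr (Or.inr (Or.inl ⟨h2, h3⟩))))
  · exact Or.inr (Or.inr (Or.inr (Or.inr (Or.inr (Or.inl ⟨h2, h3⟩)))))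
  · exact Or.inr (Or.inr (Or.inr (Or.inr (Or.inr (Or.inr (Or.inl ⟨h2, h3⟩))))))
  · exact Or.inr (Or.inr (Or.inr (Or.inr (Or.inr (Or.inr (Or.inr (Or.inl ⟨h2, h3⟩)))))))
  · exact Or.inr (Or.inr (Or.inr (Or.inr (Or.inr (Or.inr (Or.inr (Or.inr (Or.inl ⟨h2, h3⟩))))))))
  · exact Or.inr (Or.inr (Or.inr (Or.inr (Or.inr (Or.inr (Or.inr (Or.inr (Or.inr (Or.inl ⟨h2, h3⟩)))))))))
  · exact Or.inr (Or.inr (Or.inr (Or.inr (Or.inr (Or.inr (Or.inr (Or.inr (Or.inr (Or.inr (Or.inl ⟨h2, h3⟩))))))))))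
  · exact Or.inr (Or.inr (Or.inr (Or.inr (Or.inr (Or.inr (Or.inr (Or.inr (Or.inr (Or.inr (Or.inr (Or.inl ⟨h2, h3⟩)))))))))))
  · exact Or.inr (Or.inr (Or.inr (Or.inr (Or.inr (Or.inr (Or.inr (Or.inr (Or.inr (Or.inr (Or.inr (Or.inr (Or.inl ⟨h2, h3⟩))))))))))))
  · exact Or.inr (Or.inr (Or.inr (Or.inr (Or.inr (Or.inr (Or.inr (Or.inr (Or.inr (Or.inr (Or.inr (Or.inr (Or.inr (Or.inl ⟨h2, h3⟩)))))))))))))
  · exact Or.inr (Or.inr (Or.inr (Or.inr (Or.inr (Or.inr (Or.inr (Or.inr (Or.inr (Or.inr (Or.inr (Or.inr (Or.inr (Or.inr (Or.inl ⟨h2, h3⟩))))))))))))))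
  · exact Or.inr (Or.inr (Or.inr (Or.inr (Or.inr (Or.inr (Or.inr (Or.inr (Or.inr (Or.inr (Or.inr (Or.inr (Or.inr (Or.inr (Or.inr (Or.inl ⟨h2, h3⟩)))))))))))))))
  · exact Or.inr (Or.inr (Or.inr (Or.inr (Or.inr (Or.inr (Or.inr (Or.inr (Or.inr (Or.inr (Or.inr (Or.inr (Or.inr (Or.inr (Or.inr (Or.inr (Or.inl ⟨h2, h3⟩))))))))))))))))
  · exact Or.inr (Or.inr (Or.inr (Or.inr (Or.inr (Or.inr (Or.inr (Or.inr (Or.inr (Or.inr (Or.inr (Or.inr (Or.inr (Or.inr (Or.inr (Or.inr (Or.inr (Or.inl ⟨h2, h3⟩)))))))))))))))))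
  · exact Or.inr (Or.inr (Or.inr (Or.inr (Or.inr (Or.inr (Or.inr (Or.inr (Or.inr (Or.inr (Or.inr (Or.inr (Or.inr (Or.inr (Or.inr (Or.inr (Or.inr (Or.inr (Or.inl ⟨h2, h3⟩))))))))))))))))))
  · exact Or.inr (Or.inr (Or.inr (Or.inr (Or.inr (Or.inr (Or.inr (Or.inr (Or.inr (Or.inr (Or.inr (Or.inr (Or.inr (Or.inr (Or.inr (Or.inr (Or.inr (Or.inr (Or.inr ⟨h2, h3⟩))))))))))))))))))

theorem surv_e6_9 : surv [2, 5, 6, 8, 9, 12] 36 9 =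
    [(9, 0, 2), (9, 0, 3), (9, 1, 2), (9, 1, 3), (9, 2, 3), (9, 3, 3), (9, 3, 4), (9, 4, 4), (9, 6, 0), (9, 7, 0),
    (9, 11, 0), (9, 12, 0), (9, 13, 0), (9, 14, 0), (9, 15, 0), (12, 0, 2), (12, 0, 3), (12, 0, 4), (12, 1, 2),
    (12, 1, 3), (12, 1, 4), (12, 2, 3), (12, 2, 4), (12, 3, 3), (12, 3, 4), (12, 4, 4), (12, 4, 5), (12, 5, 4),
    (12, 6, 0), (12, 7, 0), (12, 8, 0), (12, 12, 0), (12, 13, 0), (12, 14, 0), (12, 15, 0)] := by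
  decide +kernel

/-- class 9 of `e6`, own characteristic -/
theorem charp_e6_9 (hp : p.Prime) (hf : 1 ≤ f) (hg : Cond g) (hch : HasChar p g) (hc : den g * c = num g)
    (hdvd : c ∣ num (.e6 (p ^ f))) (hz : ZT p f 9 c) :
    ∃ f₁, 1 ≤ f₁ ∧ (
      (f₁ * 2 = f * 9 ∧ g = .psl 2 (p ^ f₁)) ∨
      (f₁ * 3 = f * 9 ∧ g = .psl 3 (p ^ f₁)) ∨
      (f₁ * 4 = f * 9 ∧ g = .psp 2 (p ^ f₁)) ∨
      (f₁ * 6 = f * 9 ∧ g = .psp 3 (p ^ f₁)) ∨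
      (f₁ * 6 = f * 9 ∧ g = .oodd 3 (p ^ f₁)) ∨
      (f₁ * 6 = f * 9 ∧ g = .psu 3 (p ^ f₁)) ∨
      (f₁ * 6 = f * 9 ∧ g = .psu 4 (p ^ f₁)) ∨
      (f₁ * 6 = f * 9 ∧ g = .oplus 4 (p ^ f₁)) ∨
      (f₁ * 6 = f * 9 ∧ g = .g2 (p ^ f₁)) ∨
      (f₁ * 12 = f * 9 ∧ g = .f4 (p ^ f₁)) ∨
      (f₁ * 18 = f * 9 ∧ g = .te6 (p ^ f₁)) ∨
      (f₁ * 12 = f * 9 ∧ g = .td4 (p ^ f₁)) ∨
      (f₁ * 4 = f * 9 ∧ g = .sz (p ^ f₁)) ∨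
      (f₁ * 6 = f * 9 ∧ g = .ree (p ^ f₁)) ∨
      (f₁ * 12 = f * 9 ∧ g = .tf4 (p ^ f₁)) ∨
      (f₁ * 2 = f * 12 ∧ g = .psl 2 (p ^ f₁)) ∨
      (f₁ * 3 = f * 12 ∧ g = .psl 3 (p ^ f₁)) ∨
      (f₁ * 4 = f * 12 ∧ g = .psl 4 (p ^ f₁)) ∨
      (f₁ * 4 = f * 12 ∧ g = .psp 2 (p ^ f₁)) ∨
      (f₁ * 6 = f * 12 ∧ g = .psp 3 (p ^ f₁)) ∨
      (f₁ * 8 = f * 12 ∧ g = .psp 4 (p ^ f₁)) ∨
      (f₁ * 6 = f * 12 ∧ g = .oodd 3 (p ^ f₁)) ∨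
      (f₁ * 8 = f * 12 ∧ g = .oodd 4 (p ^ f₁)) ∨
      (f₁ * 6 = f * 12 ∧ g = .psu 3 (p ^ f₁)) ∨
      (f₁ * 6 = f * 12 ∧ g = .psu 4 (p ^ f₁)) ∨
      (f₁ * 6 = f * 12 ∧ g = .oplus 4 (p ^ f₁)) ∨
      (f₁ * 8 = f * 12 ∧ g = .oplus 5 (p ^ f₁)) ∨
      (f₁ * 8 = f * 12 ∧ g = .ominus 4 (p ^ f₁)) ∨
      (f₁ * 6 = f * 12 ∧ g = .g2 (p ^ f₁)) ∨
      (f₁ * 12 = f * 12 ∧ g = .f4 (p ^ f₁)) ∨
      (f₁ * 12 = f * 12 ∧ g = .e6 (p ^ f₁)) ∨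
      (f₁ * 12 = f * 12 ∧ g = .td4 (p ^ f₁)) ∨
      (f₁ * 4 = f * 12 ∧ g = .sz (p ^ f₁)) ∨
      (f₁ * 6 = f * 12 ∧ g = .ree (p ^ f₁)) ∨
      (f₁ * 12 = f * 12 ∧ g = .tf4 (p ^ f₁))) := by
  obtain ⟨x, hx, f₁, h1, h2, h3⟩ := engine (XT := [2, 5, 6, 8, 9, 12]) (MT := 12) (aT := 36) (e := 9) hp hf hg hch hc
    (td_e6 hp hf hdvd) (by norm_num) (by norm_num) hz
  rw [surv_e6_9] at hx
  simp only [List.mem_cons, List.not_mem_nil, or_false] at hx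
  refine ⟨f₁, h1, ?_⟩
  rcases hx with rfl | rfl | rfl | rfl | rfl | rfl | rfl | rfl | rfl | rfl | rfl | rfl | rfl | rfl | rfl | rfl | rfl | rfl | rfl | rfl | rfl | rfl | rfl | rfl | rfl | rfl | rfl | rfl | rfl | rfl | rfl | rfl | rfl | rfl | rfl
  · exact Or.inl ⟨h2, h3⟩
  · exact Or.inr (Or.inl ⟨h2, h3⟩)
  · exact Or.inr (Or.inr (Or.inl ⟨h2, h3⟩))
  · exact Or.inr (Or.inr (Or.inr (Or.inl ⟨h2, h3⟩)))
  · exact Or.inr (Or.inr (Or.inr (Or.inr (Or.inl ⟨h2, h3⟩))))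
  · exact Or.inr (Or.inr (Or.inr (Or.inr (Or.inr (Or.inl ⟨h2, h3⟩)))))
  · exact Or.inr (Or.inr (Or.inr (Or.inr (Or.inr (Or.inr (Or.inl ⟨h2, h3⟩))))))
  · exact Or.inr (Or.inr (Or.inr (Or.inr (Or.inr (Or.inr (Or.inr (Or.inl ⟨h2, h3⟩)))))))
  · exact Or.inr (Or.inr (Or.inr (Or.inr (Or.inr (Or.inr (Or.inr (Or.inr (Or.inl ⟨h2, h3⟩))))))))
  · exact Or.inr (Or.inr (Or.inr (Or.inr (Or.inr (Or.inr (Or.inr (Or.inr (Or.inr (Or.inl ⟨h2, h3⟩)))))))))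
  · exact Or.inr (Or.inr (Or.inr (Or.inr (Or.inr (Or.inr (Or.inr (Or.inr (Or.inr (Or.inr (Or.inl ⟨h2, h3⟩))))))))))
  · exact Or.inr (Or.inr (Or.inr (Or.inr (Or.inr (Or.inr (Or.inr (Or.inr (Or.inr (Or.inr (Or.inr (Or.inl ⟨h2, h3⟩)))))))))))
  · exact Or.inr (Or.inr (Or.inr (Or.inr (Or.inr (Or.inr (Or.inr (Or.inr (Or.inr (Or.inr (Or.inr (Or.inr (Or.inl ⟨h2, h3⟩))))))))))))
  · exact Or.inr (Or.inr (Or.inr (Or.inr (Or.inr (Or.inr (Or.inr (Or.inr (Or.inr (Or.inr (Or.inr (Or.inr (Or.inr (Or.inl ⟨h2, h3⟩)))))))))))))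
  · exact Or.inr (Or.inr (Or.inr (Or.inr (Or.inr (Or.inr (Or.inr (Or.inr (Or.inr (Or.inr (Or.inr (Or.inr (Or.inr (Or.inr (Or.inl ⟨h2, h3⟩))))))))))))))
  · exact Or.inr (Or.inr (Or.inr (Or.inr (Or.inr (Or.inr (Or.inr (Or.inr (Or.inr (Or.inr (Or.inr (Or.inr (Or.inr (Or.inr (Or.inr (Or.inl ⟨h2, h3⟩)))))))))))))))
  · exact Or.inr (Or.inr (Or.inr (Or.inr (Or.inr (Or.inr (Or.inr (Or.inr (Or.inr (Or.inr (Or.inr (Or.inr (Or.inr (Or.inr (Or.inr (Or.inr (Or.inl ⟨h2, h3⟩))))))))))))))))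
  · exact Or.inr (Or.inr (Or.inr (Or.inr (Or.inr (Or.inr (Or.inr (Or.inr (Or.inr (Or.inr (Or.inr (Or.inr (Or.inr (Or.inr (Or.inr (Or.inr (Or.inr (Or.inl ⟨h2, h3⟩)))))))))))))))))
  · exact Or.inr (Or.inr (Or.inr (Or.inr (Or.inr (Or.inr (Or.inr (Or.inr (Or.inr (Or.inr (Or.inr (Or.inr (Or.inr (Or.inr (Or.inr (Or.inr (Or.inr (Or.inr (Or.inl ⟨h2, h3⟩))))))))))))))))))
  · exact Or.inr (Or.inr (Or.inr (Or.inr (Or.inr (Or.inr (Or.inr (Or.inr (Or.inr (Or.inr (Or.inr (Or.inr (Or.inr (Or.inr (Or.inr (Or.inr (Or.inr (Or.inr (Or.inr (Or.inl ⟨h2, h3⟩)))))))))))))))))))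
  · exact Or.inr (Or.inr (Or.inr (Or.inr (Or.inr (Or.inr (Or.inr (Or.inr (Or.inr (Or.inr (Or.inr (Or.inr (Or.inr (Or.inr (Or.inr (Or.inr (Or.inr (Or.inr (Or.inr (Or.inr (Or.inl ⟨h2, h3⟩))))))))))))))))))))
  · exact Or.inr (Or.inr (Or.inr (Or.inr (Or.inr (Or.inr (Or.inr (Or.inr (Or.inr (Or.inr (Or.inr (Or.inr (Or.inr (Or.inr (Or.inr (Or.inr (Or.inr (Or.inr (Or.inr (Or.inr (Or.inr (Or.inl ⟨h2, h3⟩)))))))))))))))))))))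
  · exact Or.inr (Or.inr (Or.inr (Or.inr (Or.inr (Or.inr (Or.inr (Or.inr (Or.inr (Or.inr (Or.inr (Or.inr (Or.inr (Or.inr (Or.inr (Or.inr (Or.inr (Or.inr (Or.inr (Or.inr (Or.inr (Or.inr (Or.inl ⟨h2, h3⟩))))))))))))))))))))))
  · exact Or.inr (Or.inr (Or.inr (Or.inr (Or.inr (Or.inr (Or.inr (Or.inr (Or.inr (Or.inr (Or.inr (Or.inr (Or.inr (Or.inr (Or.inr (Or.inr (Or.inr (Or.inr (Or.inr (Or.inr (Or.inr (Or.inr (Or.inr (Or.inl ⟨h2, h3⟩)))))))))))))))))))))))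
  · exact Or.inr (Or.inr (Or.inr (Or.inr (Or.inr (Or.inr (Or.inr (Or.inr (Or.inr (Or.inr (Or.inr (Or.inr (Or.inr (Or.inr (Or.inr (Or.inr (Or.inr (Or.inr (Or.inr (Or.inr (Or.inr (Or.inr (Or.inr (Or.inr (Or.inl ⟨h2, h3⟩))))))))))))))))))))))))
  · exact Or.inr (Or.inr (Or.inr (Or.inr (Or.inr (Or.inr (Or.inr (Or.inr (Or.inr (Or.inr (Or.inr (Or.inr (Or.inr (Or.inr (Or.inr (Or.inr (Or.inr (Or.inr (Or.inr (Or.inr (Or.inr (Or.inr (Or.inr (Or.inr (Or.inr (Or.inl ⟨h2, h3⟩)))))))))))))))))))))))))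
  · exact Or.inr (Or.inr (Or.inr (Or.inr (Or.inr (Or.inr (Or.inr (Or.inr (Or.inr (Or.inr (Or.inr (Or.inr (Or.inr (Or.inr (Or.inr (Or.inr (Or.inr (Or.inr (Or.inr (Or.inr (Or.inr (Or.inr (Or.inr (Or.inr (Or.inr (Or.inr (Or.inl ⟨h2, h3⟩))))))))))))))))))))))))))
  · exact Or.inr (Or.inr (Or.inr (Or.inr (Or.inr (Or.inr (Or.inr (Or.inr (Or.inr (Or.inr (Or.inr (Or.inr (Or.inr (Or.inr (Or.inr (Or.inr (Or.inr (Or.inr (Or.inr (Or.inr (Or.inr (Or.inr (Or.inr (Or.inr (Or.inr (Or.inr (Or.inr (Or.inl ⟨h2, h3⟩)))))))))))))))))))))))))))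
  · exact Or.inr (Or.inr (Or.inr (Or.inr (Or.inr (Or.inr (Or.inr (Or.inr (Or.inr (Or.inr (Or.inr (Or.inr (Or.inr (Or.inr (Or.inr (Or.inr (Or.inr (Or.inr (Or.inr (Or.inr (Or.inr (Or.inr (Or.inr (Or.inr (Or.inr (Or.inr (Or.inr (Or.inr (Or.inl ⟨h2, h3⟩))))))))))))))))))))))))))))
  · exact Or.inr (Or.inr (Or.inr (Or.inr (Or.inr (Or.inr (Or.inr (Or.inr (Or.inr (Or.inr (Or.inr (Or.inr (Or.inr (Or.inr (Or.inr (Or.inr (Or.inr (Or.inr (Or.inr (Or.inr (Or.inr (Or.inr (Or.inr (Or.inr (Or.inr (Or.inr (Or.inr (Or.inr (Or.inr (Or.inl ⟨h2, h3⟩)))))))))))))))))))))))))))))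
  · exact Or.inr (Or.inr (Or.inr (Or.inr (Or.inr (Or.inr (Or.inr (Or.inr (Or.inr (Or.inr (Or.inr (Or.inr (Or.inr (Or.inr (Or.inr (Or.inr (Or.inr (Or.inr (Or.inr (Or.inr (Or.inr (Or.inr (Or.inr (Or.inr (Or.inr (Or.inr (Or.inr (Or.inr (Or.inr (Or.inr (Or.inl ⟨h2, h3⟩))))))))))))))))))))))))))))))
  · exact Or.inr (Or.inr (Or.inr (Or.inr (Or.inr (Or.inr (Or.inr (Or.inr (Or.inr (Or.inr (Or.inr (Or.inr (Or.inr (Or.inr (Or.inr (Or.inr (Or.inr (Or.inr (Or.inr (Or.inr (Or.inr (Or.inr (Or.inr (Or.inr (Or.inr (Or.inr (Or.inr (Or.inr (Or.inr (Or.inr (Or.inr (Or.inl ⟨h2, h3⟩)))))))))))))))))))))))))))))))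
  · exact Or.inr (Or.inr (Or.inr (Or.inr (Or.inr (Or.inr (Or.inr (Or.inr (Or.inr (Or.inr (Or.inr (Or.inr (Or.inr (Or.inr (Or.inr (Or.inr (Or.inr (Or.inr (Or.inr (Or.inr (Or.inr (Or.inr (Or.inr (Or.inr (Or.inr (Or.inr (Or.inr (Or.inr (Or.inr (Or.inr (Or.inr (Or.inr (Or.inl ⟨h2, h3⟩))))))))))))))))))))))))))))))))
  · exact Or.inr (Or.inr (Or.inr (Or.inr (Or.inr (Or.inr (Or.inr (Or.inr (Or.inr (Or.inr (Or.inr (Or.inr (Or.inr (Or.inr (Or.inr (Or.inr (Or.inr (Or.inr (Or.inr (Or.inr (Or.inr (Or.inr (Or.inr (Or.inr (Or.inr (Or.inr (Or.inr (Or.inr (Or.inr (Or.inr (Or.inr (Or.inr (Or.inr (Or.inl ⟨h2, h3⟩)))))))))))))))))))))))))))))))))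
  · exact Or.inr (Or.inr (Or.inr (Or.inr (Or.inr (Or.inr (Or.inr (Or.inr (Or.inr (Or.inr (Or.inr (Or.inr (Or.inr (Or.inr (Or.inr (Or.inr (Or.inr (Or.inr (Or.inr (Or.inr (Or.inr (Or.inr (Or.inr (Or.inr (Or.inr (Or.inr (Or.inr (Or.inr (Or.inr (Or.inr (Or.inr (Or.inr (Or.inr (Or.inr ⟨h2, h3⟩)))))))))))))))))))))))))))))))))

theorem surv_te6_18 : surv [2, 10, 6, 8, 18, 12] 36 18 =
    [(18, 0, 2), (18, 0, 3), (18, 1, 2), (18, 1, 3), (18, 2, 3), (18, 3, 3), (18, 3, 4), (18, 4, 4), (18, 6, 0),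
    (18, 7, 0), (18, 11, 0), (18, 12, 0), (18, 13, 0), (18, 14, 0), (18, 15, 0)] := by
  decide +kernel

/-- class 18 of `te6`, own characteristic -/
theorem charp_te6_18 (hp : p.Prime) (hf : 1 ≤ f) (hg : Cond g) (hch : HasChar p g) (hc : den g * c = num g)
    (hdvd : c ∣ num (.te6 (p ^ f))) (hz : ZT p f 18 c) :
    ∃ f₁, 1 ≤ f₁ ∧ (
      (f₁ * 2 = f * 18 ∧ g = .psl 2 (p ^ f₁)) ∨
      (f₁ * 3 = f * 18 ∧ g = .psl 3 (p ^ f₁)) ∨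
      (f₁ * 4 = f * 18 ∧ g = .psp 2 (p ^ f₁)) ∨
      (f₁ * 6 = f * 18 ∧ g = .psp 3 (p ^ f₁)) ∨
      (f₁ * 6 = f * 18 ∧ g = .oodd 3 (p ^ f₁)) ∨
      (f₁ * 6 = f * 18 ∧ g = .psu 3 (p ^ f₁)) ∨
      (f₁ * 6 = f * 18 ∧ g = .psu 4 (p ^ f₁)) ∨
      (f₁ * 6 = f * 18 ∧ g = .oplus 4 (p ^ f₁)) ∨
      (f₁ * 6 = f * 18 ∧ g = .g2 (p ^ f₁)) ∨
      (f₁ * 12 = f * 18 ∧ g = .f4 (p ^ f₁)) ∨
      (f₁ * 18 = f * 18 ∧ g = .te6 (p ^ f₁)) ∨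
      (f₁ * 12 = f * 18 ∧ g = .td4 (p ^ f₁)) ∨
      (f₁ * 4 = f * 18 ∧ g = .sz (p ^ f₁)) ∨
      (f₁ * 6 = f * 18 ∧ g = .ree (p ^ f₁)) ∨
      (f₁ * 12 = f * 18 ∧ g = .tf4 (p ^ f₁))) := by
  obtain ⟨x, hx, f₁, h1, h2, h3⟩ := engine (XT := [2, 10, 6, 8, 18, 12]) (MT := 18) (aT := 36) (e := 18) hp hf hg hch hc
    (td_te6 hp hf hdvd) (by norm_num) (by norm_num) hz
  rw [surv_te6_18] at hx
  simp only [List.mem_cons, List.not_mem_nil, or_false] at hx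
  refine ⟨f₁, h1, ?_⟩
  rcases hx with rfl | rfl | rfl | rfl | rfl | rfl | rfl | rfl | rfl | rfl | rfl | rfl | rfl | rfl | rfl
  · exact Or.inl ⟨h2, h3⟩
  · exact Or.inr (Or.inl ⟨h2, h3⟩)
  · exact Or.inr (Or.inr (Or.inl ⟨h2, h3⟩))
  · exact Or.inr (Or.inr (Or.inr (Or.inl ⟨h2, h3⟩)))
  · exact Or.inr (Or.inr (Or.inr (Or.inr (Or.inl ⟨h2, h3⟩))))
  · exact Or.inr (Or.inr (Or.inr (Or.inr (Or.inr (Or.inl ⟨h2, h3⟩)))))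
  · exact Or.inr (Or.inr (Or.inr (Or.inr (Or.inr (Or.inr (Or.inl ⟨h2, h3⟩))))))
  · exact Or.inr (Or.inr (Or.inr (Or.inr (Or.inr (Or.inr (Or.inr (Or.inl ⟨h2, h3⟩)))))))
  · exact Or.inr (Or.inr (Or.inr (Or.inr (Or.inr (Or.inr (Or.inr (Or.inr (Or.inl ⟨h2, h3⟩))))))))
  · exact Or.inr (Or.inr (Or.inr (Or.inr (Or.inr (Or.inr (Or.inr (Or.inr (Or.inr (Or.inl ⟨h2, h3⟩)))))))))
  · exact Or.inr (Or.inr (Or.inr (Or.inr (Or.inr (Or.inr (Or.inr (Or.inr (Or.inr (Or.inr (Or.inl ⟨h2, h3⟩))))))))))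
  · exact Or.inr (Or.inr (Or.inr (Or.inr (Or.inr (Or.inr (Or.inr (Or.inr (Or.inr (Or.inr (Or.inr (Or.inl ⟨h2, h3⟩)))))))))))
  · exact Or.inr (Or.inr (Or.inr (Or.inr (Or.inr (Or.inr (Or.inr (Or.inr (Or.inr (Or.inr (Or.inr (Or.inr (Or.inl ⟨h2, h3⟩))))))))))))
  · exact Or.inr (Or.inr (Or.inr (Or.inr (Or.inr (Or.inr (Or.inr (Or.inr (Or.inr (Or.inr (Or.inr (Or.inr (Or.inr (Or.inl ⟨h2, h3⟩)))))))))))))
  · exact Or.inr (Or.inr (Or.inr (Or.inr (Or.inr (Or.inr (Or.inr (Or.inr (Or.inr (Or.inr (Or.inr (Or.inr (Or.inr (Or.inr ⟨h2, h3⟩)))))))))))))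

theorem surv_te6_12 : surv [2, 10, 6, 8, 18, 12] 36 12 =
    [(18, 0, 2), (18, 0, 3), (18, 1, 2), (18, 1, 3), (18, 2, 3), (18, 3, 3), (18, 3, 4), (18, 4, 4), (18, 6, 0),
    (18, 7, 0), (18, 11, 0), (18, 12, 0), (18, 13, 0), (18, 14, 0), (18, 15, 0), (12, 0, 2), (12, 0, 3), (12, 0,
    4), (12, 0, 6), (12, 1, 2), (12, 1, 3), (12, 1, 4), (12, 1, 6), (12, 2, 3), (12, 2, 4), (12, 2, 6), (12, 3,
    3), (12, 3, 4), (12, 4, 4), (12, 4, 5), (12, 5, 4), (12, 5, 6), (12, 6, 0), (12, 7, 0), (12, 8, 0), (12, 12,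
    0), (12, 13, 0), (12, 14, 0), (12, 15, 0)] := by
  decide +kernel

/-- class 12 of `te6`, own characteristic -/
theorem charp_te6_12 (hp : p.Prime) (hf : 1 ≤ f) (hg : Cond g) (hch : HasChar p g) (hc : den g * c = num g)
    (hdvd : c ∣ num (.te6 (p ^ f))) (hz : ZT p f 12 c) :
    ∃ f₁, 1 ≤ f₁ ∧ (
      (f₁ * 2 = f * 18 ∧ g = .psl 2 (p ^ f₁)) ∨
      (f₁ * 3 = f * 18 ∧ g = .psl 3 (p ^ f₁)) ∨
      (f₁ * 4 = f * 18 ∧ g = .psp 2 (p ^ f₁)) ∨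
      (f₁ * 6 = f * 18 ∧ g = .psp 3 (p ^ f₁)) ∨
      (f₁ * 6 = f * 18 ∧ g = .oodd 3 (p ^ f₁)) ∨
      (f₁ * 6 = f * 18 ∧ g = .psu 3 (p ^ f₁)) ∨
      (f₁ * 6 = f * 18 ∧ g = .psu 4 (p ^ f₁)) ∨
      (f₁ * 6 = f * 18 ∧ g = .oplus 4 (p ^ f₁)) ∨
      (f₁ * 6 = f * 18 ∧ g = .g2 (p ^ f₁)) ∨
      (f₁ * 12 = f * 18 ∧ g = .f4 (p ^ f₁)) ∨
      (f₁ * 18 = f * 18 ∧ g = .te6 (p ^ f₁)) ∨
      (f₁ * 12 = f * 18 ∧ g = .td4 (p ^ f₁)) ∨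
      (f₁ * 4 = f * 18 ∧ g = .sz (p ^ f₁)) ∨
      (f₁ * 6 = f * 18 ∧ g = .ree (p ^ f₁)) ∨
      (f₁ * 12 = f * 18 ∧ g = .tf4 (p ^ f₁)) ∨
      (f₁ * 2 = f * 12 ∧ g = .psl 2 (p ^ f₁)) ∨
      (f₁ * 3 = f * 12 ∧ g = .psl 3 (p ^ f₁)) ∨
      (f₁ * 4 = f * 12 ∧ g = .psl 4 (p ^ f₁)) ∨
      (f₁ * 6 = f * 12 ∧ g = .psl 6 (p ^ f₁)) ∨
      (f₁ * 4 = f * 12 ∧ g = .psp 2 (p ^ f₁)) ∨
      (f₁ * 6 = f * 12 ∧ g = .psp 3 (p ^ f₁)) ∨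
      (f₁ * 8 = f * 12 ∧ g = .psp 4 (p ^ f₁)) ∨
      (f₁ * 12 = f * 12 ∧ g = .psp 6 (p ^ f₁)) ∨
      (f₁ * 6 = f * 12 ∧ g = .oodd 3 (p ^ f₁)) ∨
      (f₁ * 8 = f * 12 ∧ g = .oodd 4 (p ^ f₁)) ∨
      (f₁ * 12 = f * 12 ∧ g = .oodd 6 (p ^ f₁)) ∨
      (f₁ * 6 = f * 12 ∧ g = .psu 3 (p ^ f₁)) ∨
      (f₁ * 6 = f * 12 ∧ g = .psu 4 (p ^ f₁)) ∨
      (f₁ * 6 = f * 12 ∧ g = .oplus 4 (p ^ f₁)) ∨
      (f₁ * 8 = f * 12 ∧ g = .oplus 5 (p ^ f₁)) ∨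
      (f₁ * 8 = f * 12 ∧ g = .ominus 4 (p ^ f₁)) ∨
      (f₁ * 12 = f * 12 ∧ g = .ominus 6 (p ^ f₁)) ∨
      (f₁ * 6 = f * 12 ∧ g = .g2 (p ^ f₁)) ∨
      (f₁ * 12 = f * 12 ∧ g = .f4 (p ^ f₁)) ∨
      (f₁ * 12 = f * 12 ∧ g = .e6 (p ^ f₁)) ∨
      (f₁ * 12 = f * 12 ∧ g = .td4 (p ^ f₁)) ∨
      (f₁ * 4 = f * 12 ∧ g = .sz (p ^ f₁)) ∨
      (f₁ * 6 = f * 12 ∧ g = .ree (p ^ f₁)) ∨
      (f₁ * 12 = f * 12 ∧ g = .tf4 (p ^ f₁))) := by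
  obtain ⟨x, hx, f₁, h1, h2, h3⟩ := engine (XT := [2, 10, 6, 8, 18, 12]) (MT := 18) (aT := 36) (e := 12) hp hf hg hch hc
    (td_te6 hp hf hdvd) (by norm_num) (by norm_num) hz
  rw [surv_te6_12] at hx
  simp only [List.mem_cons, List.not_mem_nil, or_false] at hx
  refine ⟨f₁, h1, ?_⟩
  rcases hx with rfl | rfl | rfl | rfl | rfl | rfl | rfl | rfl | rfl | rfl | rfl | rfl | rfl | rfl | rfl | rfl | rfl | rfl | rfl | rfl | rfl | rfl | rfl | rfl | rfl | rfl | rfl | rfl | rfl | rfl | rfl | rfl | rfl | rfl | rfl | rfl | rfl | rfl | rfl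
  · exact Or.inl ⟨h2, h3⟩
  · exact Or.inr (Or.inl ⟨h2, h3⟩)
  · exact Or.inr (Or.inr (Or.inl ⟨h2, h3⟩))
  · exact Or.inr (Or.inr (Or.inr (Or.inl ⟨h2, h3⟩)))
  · exact Or.inr (Or.inr (Or.inr (Or.inr (Or.inl ⟨h2, h3⟩))))
  · exact Or.inr (Or.inr (Or.inr (Or.inr (Or.inr (Or.inl ⟨h2, h3⟩)))))
  · exact Or.inr (Or.inr (Or.inr (Or.inr (Or.inr (Or.inr (Or.inl ⟨h2, h3⟩))))))
  · exact Or.inr (Or.inr (Or.inr (Or.inr (Or.inr (Or.inr (Or.inr (Or.inl ⟨h2, h3⟩)))))))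
  · exact Or.inr (Or.inr (Or.inr (Or.inr (Or.inr (Or.inr (Or.inr (Or.inr (Or.inl ⟨h2, h3⟩))))))))
  · exact Or.inr (Or.inr (Or.inr (Or.inr (Or.inr (Or.inr (Or.inr (Or.inr (Or.inr (Or.inl ⟨h2, h3⟩)))))))))
  · exact Or.inr (Or.inr (Or.inr (Or.inr (Or.inr (Or.inr (Or.inr (Or.inr (Or.inr (Or.inr (Or.inl ⟨h2, h3⟩))))))))))
  · exact Or.inr (Or.inr (Or.inr (Or.inr (Or.inr (Or.inr (Or.inr (Or.inr (Or.inr (Or.inr (Or.inr (Or.inl ⟨h2, h3⟩)))))))))))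
  · exact Or.inr (Or.inr (Or.inr (Or.inr (Or.inr (Or.inr (Or.inr (Or.inr (Or.inr (Or.inr (Or.inr (Or.inr (Or.inl ⟨h2, h3⟩))))))))))))
  · exact Or.inr (Or.inr (Or.inr (Or.inr (Or.inr (Or.inr (Or.inr (Or.inr (Or.inr (Or.inr (Or.inr (Or.inr (Or.inr (Or.inl ⟨h2, h3⟩)))))))))))))
  · exact Or.inr (Or.inr (Or.inr (Or.inr (Or.inr (Or.inr (Or.inr (Or.inr (Or.inr (Or.inr (Or.inr (Or.inr (Or.inr (Or.inr (Or.inl ⟨h2, h3⟩))))))))))))))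
  · exact Or.inr (Or.inr (Or.inr (Or.inr (Or.inr (Or.inr (Or.inr (Or.inr (Or.inr (Or.inr (Or.inr (Or.inr (Or.inr (Or.inr (Or.inr (Or.inl ⟨h2, h3⟩)))))))))))))))
  · exact Or.inr (Or.inr (Or.inr (Or.inr (Or.inr (Or.inr (Or.inr (Or.inr (Or.inr (Or.inr (Or.inr (Or.inr (Or.inr (Or.inr (Or.inr (Or.inr (Or.inl ⟨h2, h3⟩))))))))))))))))
  · exact Or.inr (Or.inr (Or.inr (Or.inr (Or.inr (Or.inr (Or.inr (Or.inr (Or.inr (Or.inr (Or.inr (Or.inr (Or.inr (Or.inr (Or.inr (Or.inr (Or.inr (Or.inl ⟨h2, h3⟩)))))))))))))))))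
  · exact Or.inr (Or.inr (Or.inr (Or.inr (Or.inr (Or.inr (Or.inr (Or.inr (Or.inr (Or.inr (Or.inr (Or.inr (Or.inr (Or.inr (Or.inr (Or.inr (Or.inr (Or.inr (Or.inl ⟨h2, h3⟩))))))))))))))))))
  · exact Or.inr (Or.inr (Or.inr (Or.inr (Or.inr (Or.inr (Or.inr (Or.inr (Or.inr (Or.inr (Or.inr (Or.inr (Or.inr (Or.inr (Or.inr (Or.inr (Or.inr (Or.inr (Or.inr (Or.inl ⟨h2, h3⟩)))))))))))))))))))
  · exact Or.inr (Or.inr (Or.inr (Or.inr (Or.inr (Or.inr (Or.inr (Or.inr (Or.inr (Or.inr (Or.inr (Or.inr (Or.inr (Or.inr (Or.inr (Or.inr (Or.inr (Or.inr (Or.inr (Or.inr (Or.inl ⟨h2, h3⟩))))))))))))))))))))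
  · exact Or.inr (Or.inr (Or.inr (Or.inr (Or.inr (Or.inr (Or.inr (Or.inr (Or.inr (Or.inr (Or.inr (Or.inr (Or.inr (Or.inr (Or.inr (Or.inr (Or.inr (Or.inr (Or.inr (Or.inr (Or.inr (Or.inl ⟨h2, h3⟩)))))))))))))))))))))
  · exact Or.inr (Or.inr (Or.inr (Or.inr (Or.inr (Or.inr (Or.inr (Or.inr (Or.inr (Or.inr (Or.inr (Or.inr (Or.inr (Or.inr (Or.inr (Or.inr (Or.inr (Or.inr (Or.inr (Or.inr (Or.inr (Or.inr (Or.inl ⟨h2, h3⟩))))))))))))))))))))))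
  · exact Or.inr (Or.inr (Or.inr (Or.inr (Or.inr (Or.inr (Or.inr (Or.inr (Or.inr (Or.inr (Or.inr (Or.inr (Or.inr (Or.inr (Or.inr (Or.inr (Or.inr (Or.inr (Or.inr (Or.inr (Or.inr (Or.inr (Or.inr (Or.inl ⟨h2, h3⟩)))))))))))))))))))))))
  · exact Or.inr (Or.inr (Or.inr (Or.inr (Or.inr (Or.inr (Or.inr (Or.inr (Or.inr (Or.inr (Or.inr (Or.inr (Or.inr (Or.inr (Or.inr (Or.inr (Or.inr (Or.inr (Or.inr (Or.inr (Or.inr (Or.inr (Or.inr (Or.inr (Or.inl ⟨h2, h3⟩))))))))))))))))))))))))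
  · exact Or.inr (Or.inr (Or.inr (Or.inr (Or.inr (Or.inr (Or.inr (Or.inr (Or.inr (Or.inr (Or.inr (Or.inr (Or.inr (Or.inr (Or.inr (Or.inr (Or.inr (Or.inr (Or.inr (Or.inr (Or.inr (Or.inr (Or.inr (Or.inr (Or.inr (Or.inl ⟨h2, h3⟩)))))))))))))))))))))))))
  · exact Or.inr (Or.inr (Or.inr (Or.inr (Or.inr (Or.inr (Or.inr (Or.inr (Or.inr (Or.inr (Or.inr (Or.inr (Or.inr (Or.inr (Or.inr (Or.inr (Or.inr (Or.inr (Or.inr (Or.inr (Or.inr (Or.inr (Or.inr (Or.inr (Or.inr (Or.inr (Or.inl ⟨h2, h3⟩))))))))))))))))))))))))))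
  · exact Or.inr (Or.inr (Or.inr (Or.inr (Or.inr (Or.inr (Or.inr (Or.inr (Or.inr (Or.inr (Or.inr (Or.inr (Or.inr (Or.inr (Or.inr (Or.inr (Or.inr (Or.inr (Or.inr (Or.inr (Or.inr (Or.inr (Or.inr (Or.inr (Or.inr (Or.inr (Or.inr (Or.inl ⟨h2, h3⟩)))))))))))))))))))))))))))
  · exact Or.inr (Or.inr (Or.inr (Or.inr (Or.inr (Or.inr (Or.inr (Or.inr (Or.inr (Or.inr (Or.inr (Or.inr (Or.inr (Or.inr (Or.inr (Or.inr (Or.inr (Or.inr (Or.inr (Or.inr (Or.inr (Or.inr (Or.inr (Or.inr (Or.inr (Or.inr (Or.inr (Or.inr (Or.inl ⟨h2, h3⟩))))))))))))))))))))))))))))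
  · exact Or.inr (Or.inr (Or.inr (Or.inr (Or.inr (Or.inr (Or.inr (Or.inr (Or.inr (Or.inr (Or.inr (Or.inr (Or.inr (Or.inr (Or.inr (Or.inr (Or.inr (Or.inr (Or.inr (Or.inr (Or.inr (Or.inr (Or.inr (Or.inr (Or.inr (Or.inr (Or.inr (Or.inr (Or.inr (Or.inl ⟨h2, h3⟩)))))))))))))))))))))))))))))
  · exact Or.inr (Or.inr (Or.inr (Or.inr (Or.inr (Or.inr (Or.inr (Or.inr (Or.inr (Or.inr (Or.inr (Or.inr (Or.inr (Or.inr (Or.inr (Or.inr (Or.inr (Or.inr (Or.inr (Or.inr (Or.inr (Or.inr (Or.inr (Or.inr (Or.inr (Or.inr (Or.inr (Or.inr (Or.inr (Or.inr (Or.inl ⟨h2, h3⟩))))))))))))))))))))))))))))))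
  · exact Or.inr (Or.inr (Or.inr (Or.inr (Or.inr (Or.inr (Or.inr (Or.inr (Or.inr (Or.inr (Or.inr (Or.inr (Or.inr (Or.inr (Or.inr (Or.inr (Or.inr (Or.inr (Or.inr (Or.inr (Or.inr (Or.inr (Or.inr (Or.inr (Or.inr (Or.inr (Or.inr (Or.inr (Or.inr (Or.inr (Or.inr (Or.inl ⟨h2, h3⟩)))))))))))))))))))))))))))))))
  · exact Or.inr (Or.inr (Or.inr (Or.inr (Or.inr (Or.inr (Or.inr (Or.inr (Or.inr (Or.inr (Or.inr (Or.inr (Or.inr (Or.inr (Or.inr (Or.inr (Or.inr (Or.inr (Or.inr (Or.inr (Or.inr (Or.inr (Or.inr (Or.inr (Or.inr (Or.inr (Or.inr (Or.inr (Or.inr (Or.inr (Or.inr (Or.inr (Or.inl ⟨h2, h3⟩))))))))))))))))))))))))))))))))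
  · exact Or.inr (Or.inr (Or.inr (Or.inr (Or.inr (Or.inr (Or.inr (Or.inr (Or.inr (Or.inr (Or.inr (Or.inr (Or.inr (Or.inr (Or.inr (Or.inr (Or.inr (Or.inr (Or.inr (Or.inr (Or.inr (Or.inr (Or.inr (Or.inr (Or.inr (Or.inr (Or.inr (Or.inr (Or.inr (Or.inr (Or.inr (Or.inr (Or.inr (Or.inl ⟨h2, h3⟩)))))))))))))))))))))))))))))))))
  · exact Or.inr (Or.inr (Or.inr (Or.inr (Or.inr (Or.inr (Or.inr (Or.inr (Or.inr (Or.inr (Or.inr (Or.inr (Or.inr (Or.inr (Or.inr (Or.inr (Or.inr (Or.inr (Or.inr (Or.inr (Or.inr (Or.inr (Or.inr (Or.inr (Or.inr (Or.inr (Or.inr (Or.inr (Or.inr (Or.inr (Or.inr (Or.inr (Or.inr (Or.inr (Or.inl ⟨h2, h3⟩))))))))))))))))))))))))))))))))))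
  · exact Or.inr (Or.inr (Or.inr (Or.inr (Or.inr (Or.inr (Or.inr (Or.inr (Or.inr (Or.inr (Or.inr (Or.inr (Or.inr (Or.inr (Or.inr (Or.inr (Or.inr (Or.inr (Or.inr (Or.inr (Or.inr (Or.inr (Or.inr (Or.inr (Or.inr (Or.inr (Or.inr (Or.inr (Or.inr (Or.inr (Or.inr (Or.inr (Or.inr (Or.inr (Or.inr (Or.inl ⟨h2, h3⟩)))))))))))))))))))))))))))))))))))
  · exact Or.inr (Or.inr (Or.inr (Or.inr (Or.inr (Or.inr (Or.inr (Or.inr (Or.inr (Or.inr (Or.inr (Or.inr (Or.inr (Or.inr (Or.inr (Or.inr (Or.inr (Or.inr (Or.inr (Or.inr (Or.inr (Or.inr (Or.inr (Or.inr (Or.inr (Or.inr (Or.inr (Or.inr (Or.inr (Or.inr (Or.inr (Or.inr (Or.inr (Or.inr (Or.inr (Or.inr (Or.inl ⟨h2, h3⟩))))))))))))))))))))))))))))))))))))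
  · exact Or.inr (Or.inr (Or.inr (Or.inr (Or.inr (Or.inr (Or.inr (Or.inr (Or.inr (Or.inr (Or.inr (Or.inr (Or.inr (Or.inr (Or.inr (Or.inr (Or.inr (Or.inr (Or.inr (Or.inr (Or.inr (Or.inr (Or.inr (Or.inr (Or.inr (Or.inr (Or.inr (Or.inr (Or.inr (Or.inr (Or.inr (Or.inr (Or.inr (Or.inr (Or.inr (Or.inr (Or.inr (Or.inl ⟨h2, h3⟩)))))))))))))))))))))))))))))))))))))
  · exact Or.inr (Or.inr (Or.inr (Or.inr (Or.inr (Or.inr (Or.inr (Or.inr (Or.inr (Or.inr (Or.inr (Or.inr (Or.inr (Or.inr (Or.inr (Or.inr (Or.inr (Or.inr (Or.inr (Or.inr (Or.inr (Or.inr (Or.inr (Or.inr (Or.inr (Or.inr (Or.inr (Or.inr (Or.inr (Or.inr (Or.inr (Or.inr (Or.inr (Or.inr (Or.inr (Or.inr (Or.inr (Or.inr ⟨h2, h3⟩)))))))))))))))))))))))))))))))))))))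

theorem surv_f4_12 : surv [2, 6, 8, 12] 24 12 =
    [(12, 0, 2), (12, 0, 3), (12, 1, 2), (12, 1, 3), (12, 2, 3), (12, 3, 3), (12, 3, 4), (12, 4, 4), (12, 6, 0),
    (12, 7, 0), (12, 12, 0), (12, 13, 0), (12, 14, 0), (12, 15, 0)] := by
  decide +kernel

/-- class 12 of `f4`, own characteristic -/
theorem charp_f4_12 (hp : p.Prime) (hf : 1 ≤ f) (hg : Cond g) (hch : HasChar p g) (hc : den g * c = num g)
    (hdvd : c ∣ num (.f4 (p ^ f))) (hz : ZT p f 12 c) :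
    ∃ f₁, 1 ≤ f₁ ∧ (
      (f₁ * 2 = f * 12 ∧ g = .psl 2 (p ^ f₁)) ∨
      (f₁ * 3 = f * 12 ∧ g = .psl 3 (p ^ f₁)) ∨
      (f₁ * 4 = f * 12 ∧ g = .psp 2 (p ^ f₁)) ∨
      (f₁ * 6 = f * 12 ∧ g = .psp 3 (p ^ f₁)) ∨
      (f₁ * 6 = f * 12 ∧ g = .oodd 3 (p ^ f₁)) ∨
      (f₁ * 6 = f * 12 ∧ g = .psu 3 (p ^ f₁)) ∨
      (f₁ * 6 = f * 12 ∧ g = .psu 4 (p ^ f₁)) ∨
      (f₁ * 6 = f * 12 ∧ g = .oplus 4 (p ^ f₁)) ∨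
      (f₁ * 6 = f * 12 ∧ g = .g2 (p ^ f₁)) ∨
      (f₁ * 12 = f * 12 ∧ g = .f4 (p ^ f₁)) ∨
      (f₁ * 12 = f * 12 ∧ g = .td4 (p ^ f₁)) ∨
      (f₁ * 4 = f * 12 ∧ g = .sz (p ^ f₁)) ∨
      (f₁ * 6 = f * 12 ∧ g = .ree (p ^ f₁)) ∨
      (f₁ * 12 = f * 12 ∧ g = .tf4 (p ^ f₁))) := by
  obtain ⟨x, hx, f₁, h1, h2, h3⟩ := engine (XT := [2, 6, 8, 12]) (MT := 12) (aT := 24) (e := 12) hp hf hg hch hc
    (td_f4 hp hf hdvd) (by norm_num) (by norm_num) hz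
  rw [surv_f4_12] at hx
  simp only [List.mem_cons, List.not_mem_nil, or_false] at hx
  refine ⟨f₁, h1, ?_⟩
  rcases hx with rfl | rfl | rfl | rfl | rfl | rfl | rfl | rfl | rfl | rfl | rfl | rfl | rfl | rfl
  · exact Or.inl ⟨h2, h3⟩
  · exact Or.inr (Or.inl ⟨h2, h3⟩)
  · exact Or.inr (Or.inr (Or.inl ⟨h2, h3⟩))
  · exact Or.inr (Or.inr (Or.inr (Or.inl ⟨h2, h3⟩)))
  · exact Or.inr (Or.inr (Or.inr (Or.inr (Or.inl ⟨h2, h3⟩))))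
  · exact Or.inr (Or.inr (Or.inr (Or.inr (Or.inr (Or.inl ⟨h2, h3⟩)))))
  · exact Or.inr (Or.inr (Or.inr (Or.inr (Or.inr (Or.inr (Or.inl ⟨h2, h3⟩))))))
  · exact Or.inr (Or.inr (Or.inr (Or.inr (Or.inr (Or.inr (Or.inr (Or.inl ⟨h2, h3⟩)))))))
  · exact Or.inr (Or.inr (Or.inr (Or.inr (Or.inr (Or.inr (Or.inr (Or.inr (Or.inl ⟨h2, h3⟩))))))))
  · exact Or.inr (Or.inr (Or.inr (Or.inr (Or.inr (Or.inr (Or.inr (Or.inr (Or.inr (Or.inl ⟨h2, h3⟩)))))))))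
  · exact Or.inr (Or.inr (Or.inr (Or.inr (Or.inr (Or.inr (Or.inr (Or.inr (Or.inr (Or.inr (Or.inl ⟨h2, h3⟩))))))))))
  · exact Or.inr (Or.inr (Or.inr (Or.inr (Or.inr (Or.inr (Or.inr (Or.inr (Or.inr (Or.inr (Or.inr (Or.inl ⟨h2, h3⟩)))))))))))
  · exact Or.inr (Or.inr (Or.inr (Or.inr (Or.inr (Or.inr (Or.inr (Or.inr (Or.inr (Or.inr (Or.inr (Or.inr (Or.inl ⟨h2, h3⟩))))))))))))
  · exact Or.inr (Or.inr (Or.inr (Or.inr (Or.inr (Or.inr (Or.inr (Or.inr (Or.inr (Or.inr (Or.inr (Or.inr (Or.inr ⟨h2, h3⟩))))))))))))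

theorem surv_f4_8 : surv [2, 6, 8, 12] 24 8 =
    [(8, 0, 2), (8, 0, 4), (8, 1, 2), (8, 1, 4), (8, 2, 4), (8, 3, 3), (8, 4, 5), (8, 5, 4), (8, 6, 0), (8, 12,
    0), (8, 13, 0), (8, 14, 0), (8, 15, 0), (12, 0, 2), (12, 0, 3), (12, 1, 2), (12, 1, 3), (12, 2, 3), (12, 3,
    3), (12, 3, 4), (12, 4, 4), (12, 6, 0), (12, 7, 0), (12, 12, 0), (12, 13, 0), (12, 14, 0), (12, 15, 0)] := by
  decide +kernel

/-- class 8 of `f4`, own characteristic -/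
theorem charp_f4_8 (hp : p.Prime) (hf : 1 ≤ f) (hg : Cond g) (hch : HasChar p g) (hc : den g * c = num g)
    (hdvd : c ∣ num (.f4 (p ^ f))) (hz : ZT p f 8 c) :
    ∃ f₁, 1 ≤ f₁ ∧ (
      (f₁ * 2 = f * 8 ∧ g = .psl 2 (p ^ f₁)) ∨
      (f₁ * 4 = f * 8 ∧ g = .psl 4 (p ^ f₁)) ∨
      (f₁ * 4 = f * 8 ∧ g = .psp 2 (p ^ f₁)) ∨
      (f₁ * 8 = f * 8 ∧ g = .psp 4 (p ^ f₁)) ∨
      (f₁ * 8 = f * 8 ∧ g = .oodd 4 (p ^ f₁)) ∨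
      (f₁ * 6 = f * 8 ∧ g = .psu 3 (p ^ f₁)) ∨
      (f₁ * 8 = f * 8 ∧ g = .oplus 5 (p ^ f₁)) ∨
      (f₁ * 8 = f * 8 ∧ g = .ominus 4 (p ^ f₁)) ∨
      (f₁ * 6 = f * 8 ∧ g = .g2 (p ^ f₁)) ∨
      (f₁ * 12 = f * 8 ∧ g = .td4 (p ^ f₁)) ∨
      (f₁ * 4 = f * 8 ∧ g = .sz (p ^ f₁)) ∨
      (f₁ * 6 = f * 8 ∧ g = .ree (p ^ f₁)) ∨
      (f₁ * 12 = f * 8 ∧ g = .tf4 (p ^ f₁)) ∨
      (f₁ * 2 = f * 12 ∧ g = .psl 2 (p ^ f₁)) ∨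
      (f₁ * 3 = f * 12 ∧ g = .psl 3 (p ^ f₁)) ∨
      (f₁ * 4 = f * 12 ∧ g = .psp 2 (p ^ f₁)) ∨
      (f₁ * 6 = f * 12 ∧ g = .psp 3 (p ^ f₁)) ∨
      (f₁ * 6 = f * 12 ∧ g = .oodd 3 (p ^ f₁)) ∨
      (f₁ * 6 = f * 12 ∧ g = .psu 3 (p ^ f₁)) ∨
      (f₁ * 6 = f * 12 ∧ g = .psu 4 (p ^ f₁)) ∨
      (f₁ * 6 = f * 12 ∧ g = .oplus 4 (p ^ f₁)) ∨
      (f₁ * 6 = f * 12 ∧ g = .g2 (p ^ f₁)) ∨
      (f₁ * 12 = f * 12 ∧ g = .f4 (p ^ f₁)) ∨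
      (f₁ * 12 = f * 12 ∧ g = .td4 (p ^ f₁)) ∨
      (f₁ * 4 = f * 12 ∧ g = .sz (p ^ f₁)) ∨
      (f₁ * 6 = f * 12 ∧ g = .ree (p ^ f₁)) ∨
      (f₁ * 12 = f * 12 ∧ g = .tf4 (p ^ f₁))) := by
  obtain ⟨x, hx, f₁, h1, h2, h3⟩ := engine (XT := [2, 6, 8, 12]) (MT := 12) (aT := 24) (e := 8) hp hf hg hch hc
    (td_f4 hp hf hdvd) (by norm_num) (by norm_num) hz
  rw [surv_f4_8] at hx
  simp only [List.mem_cons, List.not_mem_nil, or_false] at hx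
  refine ⟨f₁, h1, ?_⟩
  rcases hx with rfl | rfl | rfl | rfl | rfl | rfl | rfl | rfl | rfl | rfl | rfl | rfl | rfl | rfl | rfl | rfl | rfl | rfl | rfl | rfl | rfl | rfl | rfl | rfl | rfl | rfl | rfl
  · exact Or.inl ⟨h2, h3⟩
  · exact Or.inr (Or.inl ⟨h2, h3⟩)
  · exact Or.inr (Or.inr (Or.inl ⟨h2, h3⟩))
  · exact Or.inr (Or.inr (Or.inr (Or.inl ⟨h2, h3⟩)))
  · exact Or.inr (Or.inr (Or.inr (Or.inr (Or.inl ⟨h2, h3⟩))))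
  · exact Or.inr (Or.inr (Or.inr (Or.inr (Or.inr (Or.inl ⟨h2, h3⟩)))))
  · exact Or.inr (Or.inr (Or.inr (Or.inr (Or.inr (Or.inr (Or.inl ⟨h2, h3⟩))))))
  · exact Or.inr (Or.inr (Or.inr (Or.inr (Or.inr (Or.inr (Or.inr (Or.inl ⟨h2, h3⟩)))))))
  · exact Or.inr (Or.inr (Or.inr (Or.inr (Or.inr (Or.inr (Or.inr (Or.inr (Or.inl ⟨h2, h3⟩))))))))
  · exact Or.inr (Or.inr (Or.inr (Or.inr (Or.inr (Or.inr (Or.inr (Or.inr (Or.inr (Or.inl ⟨h2, h3⟩)))))))))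
  · exact Or.inr (Or.inr (Or.inr (Or.inr (Or.inr (Or.inr (Or.inr (Or.inr (Or.inr (Or.inr (Or.inl ⟨h2, h3⟩))))))))))
  · exact Or.inr (Or.inr (Or.inr (Or.inr (Or.inr (Or.inr (Or.inr (Or.inr (Or.inr (Or.inr (Or.inr (Or.inl ⟨h2, h3⟩)))))))))))
  · exact Or.inr (Or.inr (Or.inr (Or.inr (Or.inr (Or.inr (Or.inr (Or.inr (Or.inr (Or.inr (Or.inr (Or.inr (Or.inl ⟨h2, h3⟩))))))))))))
  · exact Or.inr (Or.inr (Or.inr (Or.inr (Or.inr (Or.inr (Or.inr (Or.inr (Or.inr (Or.inr (Or.inr (Or.inr (Or.inr (Or.inl ⟨h2, h3⟩)))))))))))))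
  · exact Or.inr (Or.inr (Or.inr (Or.inr (Or.inr (Or.inr (Or.inr (Or.inr (Or.inr (Or.inr (Or.inr (Or.inr (Or.inr (Or.inr (Or.inl ⟨h2, h3⟩))))))))))))))
  · exact Or.inr (Or.inr (Or.inr (Or.inr (Or.inr (Or.inr (Or.inr (Or.inr (Or.inr (Or.inr (Or.inr (Or.inr (Or.inr (Or.inr (Or.inr (Or.inl ⟨h2, h3⟩)))))))))))))))
  · exact Or.inr (Or.inr (Or.inr (Or.inr (Or.inr (Or.inr (Or.inr (Or.inr (Or.inr (Or.inr (Or.inr (Or.inr (Or.inr (Or.inr (Or.inr (Or.inr (Or.inl ⟨h2, h3⟩))))))))))))))))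
  · exact Or.inr (Or.inr (Or.inr (Or.inr (Or.inr (Or.inr (Or.inr (Or.inr (Or.inr (Or.inr (Or.inr (Or.inr (Or.inr (Or.inr (Or.inr (Or.inr (Or.inr (Or.inl ⟨h2, h3⟩)))))))))))))))))
  · exact Or.inr (Or.inr (Or.inr (Or.inr (Or.inr (Or.inr (Or.inr (Or.inr (Or.inr (Or.inr (Or.inr (Or.inr (Or.inr (Or.inr (Or.inr (Or.inr (Or.inr (Or.inr (Or.inl ⟨h2, h3⟩))))))))))))))))))
  · exact Or.inr (Or.inr (Or.inr (Or.inr (Or.inr (Or.inr (Or.inr (Or.inr (Or.inr (Or.inr (Or.inr (Or.inr (Or.inr (Or.inr (Or.inr (Or.inr (Or.inr (Or.inr (Or.inr (Or.inl ⟨h2, h3⟩)))))))))))))))))))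
  · exact Or.inr (Or.inr (Or.inr (Or.inr (Or.inr (Or.inr (Or.inr (Or.inr (Or.inr (Or.inr (Or.inr (Or.inr (Or.inr (Or.inr (Or.inr (Or.inr (Or.inr (Or.inr (Or.inr (Or.inr (Or.inl ⟨h2, h3⟩))))))))))))))))))))
  · exact Or.inr (Or.inr (Or.inr (Or.inr (Or.inr (Or.inr (Or.inr (Or.inr (Or.inr (Or.inr (Or.inr (Or.inr (Or.inr (Or.inr (Or.inr (Or.inr (Or.inr (Or.inr (Or.inr (Or.inr (Or.inr (Or.inl ⟨h2, h3⟩)))))))))))))))))))))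
  · exact Or.inr (Or.inr (Or.inr (Or.inr (Or.inr (Or.inr (Or.inr (Or.inr (Or.inr (Or.inr (Or.inr (Or.inr (Or.inr (Or.inr (Or.inr (Or.inr (Or.inr (Or.inr (Or.inr (Or.inr (Or.inr (Or.inr (Or.inl ⟨h2, h3⟩))))))))))))))))))))))
  · exact Or.inr (Or.inr (Or.inr (Or.inr (Or.inr (Or.inr (Or.inr (Or.inr (Or.inr (Or.inr (Or.inr (Or.inr (Or.inr (Or.inr (Or.inr (Or.inr (Or.inr (Or.inr (Or.inr (Or.inr (Or.inr (Or.inr (Or.inr (Or.inl ⟨h2, h3⟩)))))))))))))))))))))))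
  · exact Or.inr (Or.inr (Or.inr (Or.inr (Or.inr (Or.inr (Or.inr (Or.inr (Or.inr (Or.inr (Or.inr (Or.inr (Or.inr (Or.inr (Or.inr (Or.inr (Or.inr (Or.inr (Or.inr (Or.inr (Or.inr (Or.inr (Or.inr (Or.inr (Or.inl ⟨h2, h3⟩))))))))))))))))))))))))
  · exact Or.inr (Or.inr (Or.inr (Or.inr (Or.inr (Or.inr (Or.inr (Or.inr (Or.inr (Or.inr (Or.inr (Or.inr (Or.inr (Or.inr (Or.inr (Or.inr (Or.inr (Or.inr (Or.inr (Or.inr (Or.inr (Or.inr (Or.inr (Or.inr (Or.inr (Or.inl ⟨h2, h3⟩)))))))))))))))))))))))))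
  · exact Or.inr (Or.inr (Or.inr (Or.inr (Or.inr (Or.inr (Or.inr (Or.inr (Or.inr (Or.inr (Or.inr (Or.inr (Or.inr (Or.inr (Or.inr (Or.inr (Or.inr (Or.inr (Or.inr (Or.inr (Or.inr (Or.inr (Or.inr (Or.inr (Or.inr (Or.inr ⟨h2, h3⟩)))))))))))))))))))))))))

theorem surv_td4_12 : surv [2, 6, 12] 12 12 =
    [(12, 0, 2), (12, 1, 2), (12, 3, 3), (12, 6, 0), (12, 12, 0), (12, 13, 0), (12, 14, 0), (12, 15, 0)] := by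
  decide +kernel

/-- class 12 of `td4`, own characteristic -/
theorem charp_td4_12 (hp : p.Prime) (hf : 1 ≤ f) (hg : Cond g) (hch : HasChar p g) (hc : den g * c = num g)
    (hdvd : c ∣ num (.td4 (p ^ f))) (hz : ZT p f 12 c) :
    ∃ f₁, 1 ≤ f₁ ∧ (
      (f₁ * 2 = f * 12 ∧ g = .psl 2 (p ^ f₁)) ∨
      (f₁ * 4 = f * 12 ∧ g = .psp 2 (p ^ f₁)) ∨
      (f₁ * 6 = f * 12 ∧ g = .psu 3 (p ^ f₁)) ∨
      (f₁ * 6 = f * 12 ∧ g = .g2 (p ^ f₁)) ∨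
      (f₁ * 12 = f * 12 ∧ g = .td4 (p ^ f₁)) ∨
      (f₁ * 4 = f * 12 ∧ g = .sz (p ^ f₁)) ∨
      (f₁ * 6 = f * 12 ∧ g = .ree (p ^ f₁)) ∨
      (f₁ * 12 = f * 12 ∧ g = .tf4 (p ^ f₁))) := by
  obtain ⟨x, hx, f₁, h1, h2, h3⟩ := engine (XT := [2, 6, 12]) (MT := 12) (aT := 12) (e := 12) hp hf hg hch hc
    (td_td4 hp hf hdvd) (by norm_num) (by norm_num) hz
  rw [surv_td4_12] at hx
  simp only [List.mem_cons, List.not_mem_nil, or_false] at hx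
  refine ⟨f₁, h1, ?_⟩
  rcases hx with rfl | rfl | rfl | rfl | rfl | rfl | rfl | rfl
  · exact Or.inl ⟨h2, h3⟩
  · exact Or.inr (Or.inl ⟨h2, h3⟩)
  · exact Or.inr (Or.inr (Or.inl ⟨h2, h3⟩))
  · exact Or.inr (Or.inr (Or.inr (Or.inl ⟨h2, h3⟩)))
  · exact Or.inr (Or.inr (Or.inr (Or.inr (Or.inl ⟨h2, h3⟩))))
  · exact Or.inr (Or.inr (Or.inr (Or.inr (Or.inr (Or.inl ⟨h2, h3⟩)))))
  · exact Or.inr (Or.inr (Or.inr (Or.inr (Or.inr (Or.inr (Or.inl ⟨h2, h3⟩))))))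
  · exact Or.inr (Or.inr (Or.inr (Or.inr (Or.inr (Or.inr (Or.inr ⟨h2, h3⟩))))))

theorem surv_tf4_12 : surv [1, 6, 4, 12] 12 12 =
    [(12, 0, 2), (12, 1, 2), (12, 3, 3), (12, 6, 0), (12, 12, 0), (12, 13, 0), (12, 14, 0), (12, 15, 0)] := by
  decide +kernel

/-- class 12 of `tf4`, own characteristic -/
theorem charp_tf4_12 (hp : p.Prime) (hf : 1 ≤ f) (hg : Cond g) (hch : HasChar p g) (hc : den g * c = num g)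
    (hdvd : c ∣ num (.tf4 (p ^ f))) (hz : ZT p f 12 c) :
    ∃ f₁, 1 ≤ f₁ ∧ (
      (f₁ * 2 = f * 12 ∧ g = .psl 2 (p ^ f₁)) ∨
      (f₁ * 4 = f * 12 ∧ g = .psp 2 (p ^ f₁)) ∨
      (f₁ * 6 = f * 12 ∧ g = .psu 3 (p ^ f₁)) ∨
      (f₁ * 6 = f * 12 ∧ g = .g2 (p ^ f₁)) ∨
      (f₁ * 12 = f * 12 ∧ g = .td4 (p ^ f₁)) ∨
      (f₁ * 4 = f * 12 ∧ g = .sz (p ^ f₁)) ∨
      (f₁ * 6 = f * 12 ∧ g = .ree (p ^ f₁)) ∨
      (f₁ * 12 = f * 12 ∧ g = .tf4 (p ^ f₁))) := by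
  obtain ⟨x, hx, f₁, h1, h2, h3⟩ := engine (XT := [1, 6, 4, 12]) (MT := 12) (aT := 12) (e := 12) hp hf hg hch hc
    (td_tf4 hp hf hdvd) (by norm_num) (by norm_num) hz
  rw [surv_tf4_12] at hx
  simp only [List.mem_cons, List.not_mem_nil, or_false] at hx
  refine ⟨f₁, h1, ?_⟩
  rcases hx with rfl | rfl | rfl | rfl | rfl | rfl | rfl | rfl
  · exact Or.inl ⟨h2, h3⟩
  · exact Or.inr (Or.inl ⟨h2, h3⟩)
  · exact Or.inr (Or.inr (Or.inl ⟨h2, h3⟩))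
  · exact Or.inr (Or.inr (Or.inr (Or.inl ⟨h2, h3⟩)))
  · exact Or.inr (Or.inr (Or.inr (Or.inr (Or.inl ⟨h2, h3⟩))))
  · exact Or.inr (Or.inr (Or.inr (Or.inr (Or.inr (Or.inl ⟨h2, h3⟩)))))
  · exact Or.inr (Or.inr (Or.inr (Or.inr (Or.inr (Or.inr (Or.inl ⟨h2, h3⟩))))))
  · exact Or.inr (Or.inr (Or.inr (Or.inr (Or.inr (Or.inr (Or.inr ⟨h2, h3⟩))))))


end Cfsg.Agent.H290.Wei
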