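import Cfsg.Agent.H72.AdjOrth
import Cfsg.Agent.H72.AdjPSL
import Cfsg.Agent.H72.AdjPSUW
import Cfsg.Agent.H377.SpElt
import Cfsg.Agent.H56.Exc.Big
import Cfsg.Agent.H436.Names
import Cfsg.Agent.H436.Ppd

/-!
# Elements of the top tori of the classical groups, by name (helper290)

`dvd_psl`, ... : if the primes `r` are big in `S` with centralisers of order dividing `M`, and `S` is the named classical
group over `Q`, every number `N`, `r ∣ N`, dividing the order of the top torus (`Q ^ m - 1`, `Q ^ m + 1`), prime to the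
centre, divides `M`.
-/

set_option autoImplicit false

namespace Cfsg.Agent.H290.Wei

open Cfsg Cfsg.Agent.OrdDiv Cfsg.Agent.H436 Cfsg.Agent.H56.Exc Cfsg.Agent.H72.AdjOrth Cfsg.Agent.H377

/-- an element of order divisible by a big prime -/
theorem dvd_of_big {S : Type*} [Group S] {r M E N : ℕ} (hb : Big S r M E) (hr : r ∣ N) (hN : 0 < N)
    (h : ∃ g : S, orderOf g = N) : N ∣ M := by
  obtain ⟨g, hg⟩ := h
  obtain ⟨k, hk⟩ := hr
  have hk0 : k ≠ 0 := by rintro rfl; omega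
  have hx : orderOf (g ^ k) = r := by
    rw [orderOf_pow_of_dvd hk0 (by rw [hg, hk]; exact dvd_mul_left _ _), hg, hk,
      Nat.mul_div_cancel _ (Nat.pos_of_ne_zero hk0)]
  have h1 : g ∈ Subgroup.centralizer ({g ^ k} : Set S) := by
    rw [Subgroup.mem_centralizer_singleton_iff]
    exact ((Commute.refl g).pow_right k).eq
  have h2 := orderOf_dvd_natCard (⟨g, h1⟩ : ↥(Subgroup.centralizer ({g ^ k} : Set S)))
  rw [Subgroup.orderOf_mk, hg] at h2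
  exact h2.trans (hb.card _ hx)

theorem exists_congr {S S' : Type*} [Group S] [Group S'] {N : ℕ} (h : ∃ g : S', orderOf g = N)
    (e : Nonempty (S ≃* S')) : ∃ g : S, orderOf g = N := by
  obtain ⟨g, hg⟩ := h
  obtain ⟨e⟩ := e
  exact ⟨e.symm g, by rw [MulEquiv.orderOf_eq, hg]⟩

variable {S : Type*} [Group S] {m Q N : ℕ}

/-- `PSL_m(Q)`, `N ∣ Q ^ m - 1` -/
theorem elt_psl (h : IsNamed (.psl m Q) S) (hm : 1 ≤ m) (hN : N ∣ Q ^ m - 1) (hco : N.Coprime (Q - 1)) :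
    ∃ g : S, orderOf g = N := by
  obtain ⟨F, _, _, hF, e⟩ := h.real
  subst hF
  exact exists_congr (Cfsg.Agent.H72.AdjPSL.exists_order_of_block (Cfsg.Agent.H72.AdjPSL.hasBlock_singer (by omega) hN hco)
    hm le_rfl hco N dvd_rfl) e

/-- `PSp_{2m}(Q)`, `N ∣ Q ^ m + 1` odd -/
theorem elt_psp (h : IsNamed (.psp m Q) S) (hm : 1 ≤ m) (hodd : Odd N) (hN : N ∣ Q ^ m + 1) :
    ∃ g : S, orderOf g = N := by
  obtain ⟨F, _, _, hF, e⟩ := h.real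
  subst hF
  rw [← Nat.card_eq_fintype_card] at hN
  exact exists_congr (exists_psp_tor_minus hm hodd.pos (Or.inl ⟨hodd, hN⟩)) e

theorem elt_block {F : Type*} [Field F] [Finite F] {k N : ℕ} (hk : 1 ≤ k) (hN : N ∣ Nat.card F ^ k + 1) :
    Elt F k (-1) N := by
  have h1 : N ∣ tn (Nat.card F) (2 * k) := by
    rw [tn, if_pos (even_two_mul k), Nat.mul_div_cancel_left _ (by norm_num)]
    exact hN
  have h2 := elt_tn (F := F) (k := 2 * k) (by omega) h1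
  rwa [eta, sg, if_pos (even_two_mul k), if_pos (even_two_mul k), Nat.mul_div_cancel_left _ (by norm_num)] at h2

/-- `PΩ_{2m+1}(Q)`, `N ∣ Q ^ m + 1` odd -/
theorem elt_oodd (h : IsNamed (.oodd m Q) S) (hm : 3 ≤ m) (hQ : Odd Q) (hodd : Odd N) (hN : N ∣ Q ^ m + 1) :
    ∃ g : S, orderOf g = N := by
  obtain ⟨F, _, _, hF, e⟩ := h.real
  subst hF
  have h2 : (2 : F) ≠ 0 := by
    intro h0
    have h3 : ringChar F = 2 := by
      have h4 : ringChar F ∣ 2 := (ringChar.spec F 2).1 (by exact_mod_cast h0)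
      exact (Nat.prime_dvd_prime_iff_eq (CharP.char_is_prime F _) Nat.prime_two).1 h4
    have h4 := FiniteField.even_card_of_char_two h3
    rw [Nat.odd_iff] at hQ
    omega
  rw [← Nat.card_eq_fintype_card] at hN
  refine exists_congr (exists_odd_of_elt h2 hm (elt_block (by omega) hN) fun j => ?_) e
  exact (Nat.Coprime.symm (Nat.coprime_two_left.2 hodd)).dvd_mul_left

/-- `PΩ⁺_{2m}(Q)`, `N ∣ Q ^ (m - 1) + 1` odd -/
theorem elt_oplus (h : IsNamed (.oplus m Q) S) (hm : 4 ≤ m) (hodd : Odd N) (hN : N ∣ Q ^ (m - 1) + 1) :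
    ∃ g : S, orderOf g = N := by
  obtain ⟨F, _, _, hF, e⟩ := h.real
  subst hF
  rw [← Nat.card_eq_fintype_card] at hN
  have h1 := elt_block (F := F) (k := m - 1) (by omega) hN
  have h2 := elt_extend (m := m) h1 (Or.inr rfl) (δ := 1) (Or.inl rfl) (by omega)
  exact exists_congr ((Elt.two (by omega) hodd h2).plus hm) e

/-- `PΩ⁺_{2m}(Q)`, `N₁ ∣ Q ^ (m - 1) + 1`, `N₂ ∣ Q + 1` odd -/
theorem elt_oplus' {N₁ N₂ : ℕ} (h : IsNamed (.oplus m Q) S) (hm : 4 ≤ m) (hodd₁ : Odd N₁) (hodd₂ : Odd N₂)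
    (hN₁ : N₁ ∣ Q ^ (m - 1) + 1) (hN₂ : N₂ ∣ Q + 1) : ∃ g : S, orderOf g = Nat.lcm N₁ N₂ := by
  obtain ⟨F, _, _, hF, e⟩ := h.real
  subst hF
  rw [← Nat.card_eq_fintype_card] at hN₁ hN₂
  have h1 := elt_block (F := F) (k := m - 1) (by omega) hN₁
  have h2 := elt_block (F := F) (k := 1) (N := N₂) le_rfl (by rwa [pow_one])
  have h3 := h1.prod h2
  rw [Nat.sub_add_cancel (by omega), neg_mul_neg, one_mul] at h3
  have ho : Odd (Nat.lcm N₁ N₂) := by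
    have h4 : Nat.lcm N₁ N₂ ∣ N₁ * N₂ := Nat.lcm_dvd (dvd_mul_right _ _) (dvd_mul_left _ _)
    exact Odd.of_dvd_nat (hodd₁.mul hodd₂) h4
  exact exists_congr ((Elt.two (by omega) ho h3).plus hm) e

/-- `PΩ⁻_{2m}(Q)`, `N ∣ Q ^ m + 1` odd -/
theorem elt_ominus (h : IsNamed (.ominus m Q) S) (hm : 4 ≤ m) (hodd : Odd N) (hN : N ∣ Q ^ m + 1) :
    ∃ g : S, orderOf g = N := by
  obtain ⟨F, _, _, a, b, hF, hab, e⟩ := h.real
  subst hF
  rw [← Nat.card_eq_fintype_card] at hN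
  have h1 := elt_block (F := F) (k := m) (by omega) hN
  exact exists_congr ((Elt.two (by omega) hodd h1).minus hm hab) e

/-- `PSU_m(Q)`, `N ∣ Q ^ k + 1`, `k` odd, prime to `Q + 1` -/
theorem elt_psu {k : ℕ} (h : IsNamed (.psu m Q) S) (hm : 3 ≤ m) (hk : Odd k) (hkm : k ≤ m) (hN : N ∣ Q ^ k + 1)
    (hco : N.Coprime (Q + 1)) : ∃ g : S, orderOf g = N := by
  obtain ⟨F, _, _, hF, e⟩ := h.real
  exact exists_congr (Cfsg.Agent.H72.AdjPSU.exists_order_of_block hF hm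
    (Cfsg.Agent.H72.AdjPSU.hasBlock_odd hF hk hN hco) hk.pos hkm hco N dvd_rfl) e

section dvd

variable {r M E : ℕ}

theorem dvd_psl (hb : Big S r M E) (hr : r ∣ N) (h : IsNamed (.psl m Q) S) (hm : 1 ≤ m) (hN0 : 0 < N)
    (hN : N ∣ Q ^ m - 1) (hco : N.Coprime (Q - 1)) : N ∣ M :=
  dvd_of_big hb hr hN0 (elt_psl h hm hN hco)

theorem dvd_psp (hb : Big S r M E) (hr : r ∣ N) (h : IsNamed (.psp m Q) S) (hm : 1 ≤ m) (hodd : Odd N)
    (hN : N ∣ Q ^ m + 1) : N ∣ M := dvd_of_big hb hr hodd.pos (elt_psp h hm hodd hN)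

theorem dvd_oodd (hb : Big S r M E) (hr : r ∣ N) (h : IsNamed (.oodd m Q) S) (hm : 3 ≤ m) (hQ : Odd Q) (hodd : Odd N)
    (hN : N ∣ Q ^ m + 1) : N ∣ M := dvd_of_big hb hr hodd.pos (elt_oodd h hm hQ hodd hN)

theorem dvd_oplus (hb : Big S r M E) (hr : r ∣ N) (h : IsNamed (.oplus m Q) S) (hm : 4 ≤ m) (hodd : Odd N)
    (hN : N ∣ Q ^ (m - 1) + 1) : N ∣ M := dvd_of_big hb hr hodd.pos (elt_oplus h hm hodd hN)

theorem dvd_ominus (hb : Big S r M E) (hr : r ∣ N) (h : IsNamed (.ominus m Q) S) (hm : 4 ≤ m) (hodd : Odd N)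
    (hN : N ∣ Q ^ m + 1) : N ∣ M := dvd_of_big hb hr hodd.pos (elt_ominus h hm hodd hN)

theorem dvd_psu {k : ℕ} (hb : Big S r M E) (hr : r ∣ N) (h : IsNamed (.psu m Q) S) (hm : 3 ≤ m) (hk : Odd k)
    (hkm : k ≤ m) (hN0 : 0 < N) (hN : N ∣ Q ^ k + 1) (hco : N.Coprime (Q + 1)) : N ∣ M :=
  dvd_of_big hb hr hN0 (elt_psu h hm hk hkm hN hco)

end dvd

/-! ### kills: two primes of the classes `e`, `e'` over `q = p ^ f` -/

section kill

variable {q e e' r u M E : ℕ}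

theorem prim_ne_two (h : Prim q e r) (he : 2 ≤ e) : r ≠ 2 := by
  rintro rfl
  have h1 : ¬ e ∣ 1 := fun h => by
    have := Nat.le_of_dvd one_pos h
    omega
  apply h1
  refine (h.dvd_iff 1).1 ?_
  rw [pow_one]
  have h2 := h.not_dvd
  have hq : 1 ≤ q := by
    by_contra hcon
    have h0 : q = 0 := by omega
    rw [h0] at h2
    exact h2 (dvd_zero _)
  omega

theorem prim_odd (h : Prim q e r) (he : 2 ≤ e) : Odd r :=
  h.prime.odd_of_ne_two (prim_ne_two h he)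

theorem prim_dvd_plus {j : ℕ} (h : Prim q e r) (h1 : e ∣ 2 * j) (h2 : ¬ e ∣ j) : r ∣ q ^ j + 1 := by
  have h3 := (h.dvd_iff (2 * j)).2 h1
  have h4 : q ^ (2 * j) - 1 = (q ^ j + 1) * (q ^ j - 1) := by
    rw [mul_comm 2 j, pow_mul]
    have := Nat.sq_sub_sq (q ^ j) 1
    rwa [one_pow] at this
  rw [h4] at h3
  exact (h.prime.dvd_mul.1 h3).resolve_right fun h5 => h2 ((h.dvd_iff j).1 h5)

theorem prim_ne (h : Prim q e r) (h' : Prim q e' u) (hne : e ≠ e') : r ≠ u := by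
  rintro rfl
  exact hne (Nat.dvd_antisymm ((h.dvd_iff e').1 ((h'.dvd_iff e').2 dvd_rfl)) ((h'.dvd_iff e).1 ((h.dvd_iff e).2 dvd_rfl)))

theorem mul_dvd (h : Prim q e r) (h' : Prim q e' u) (hne : e ≠ e') {N : ℕ} (h1 : r ∣ N) (h2 : u ∣ N) : r * u ∣ N :=
  ((Nat.coprime_primes h.prime h'.prime).2 (prim_ne h h' hne)).mul_dvd_of_dvd_of_dvd h1 h2

variable {p f f₁ j k : ℕ}

theorem kill_psp (hr : Prim (p ^ f) e r) (hu : Prim (p ^ f) e' u) (hne : e ≠ e') (he : 2 ≤ e) (he' : 2 ≤ e')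
    (hb : Big S r M E) (h : IsNamed (.psp m (p ^ f₁)) S) (hm : 1 ≤ m) (hf : f₁ * m = f * j) (h1 : e ∣ 2 * j)
    (h2 : ¬ e ∣ j) (h3 : e' ∣ 2 * j) (h4 : ¬ e' ∣ j) : u ∣ M := by
  refine (dvd_mul_left u r).trans (dvd_psp hb (dvd_mul_right r u) h hm ((prim_odd hr he).mul (prim_odd hu he')) ?_)
  rw [← pow_mul, hf, pow_mul]
  exact mul_dvd hr hu hne (prim_dvd_plus hr h1 h2) (prim_dvd_plus hu h3 h4)

theorem kill_oodd (hr : Prim (p ^ f) e r) (hu : Prim (p ^ f) e' u) (hne : e ≠ e') (he : 2 ≤ e) (he' : 2 ≤ e')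
    (hb : Big S r M E) (h : IsNamed (.oodd m (p ^ f₁)) S) (hf : f₁ * m = f * j) (h1 : e ∣ 2 * j)
    (h2 : ¬ e ∣ j) (h3 : e' ∣ 2 * j) (h4 : ¬ e' ∣ j) : u ∣ M := by
  obtain ⟨hm, hQ, -⟩ := h.cond
  refine (dvd_mul_left u r).trans (dvd_oodd hb (dvd_mul_right r u) h hm hQ ((prim_odd hr he).mul (prim_odd hu he')) ?_)
  rw [← pow_mul, hf, pow_mul]
  exact mul_dvd hr hu hne (prim_dvd_plus hr h1 h2) (prim_dvd_plus hu h3 h4)

theorem kill_ominus (hr : Prim (p ^ f) e r) (hu : Prim (p ^ f) e' u) (hne : e ≠ e') (he : 2 ≤ e) (he' : 2 ≤ e')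
    (hb : Big S r M E) (h : IsNamed (.ominus m (p ^ f₁)) S) (hf : f₁ * m = f * j) (h1 : e ∣ 2 * j)
    (h2 : ¬ e ∣ j) (h3 : e' ∣ 2 * j) (h4 : ¬ e' ∣ j) : u ∣ M := by
  obtain ⟨hm, -⟩ := h.cond
  refine (dvd_mul_left u r).trans (dvd_ominus hb (dvd_mul_right r u) h hm ((prim_odd hr he).mul (prim_odd hu he')) ?_)
  rw [← pow_mul, hf, pow_mul]
  exact mul_dvd hr hu hne (prim_dvd_plus hr h1 h2) (prim_dvd_plus hu h3 h4)

theorem kill_oplus (hr : Prim (p ^ f) e r) (hu : Prim (p ^ f) e' u) (hne : e ≠ e') (he : 2 ≤ e) (he' : 2 ≤ e')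
    (hb : Big S r M E) (h : IsNamed (.oplus m (p ^ f₁)) S) (hf : f₁ * (m - 1) = f * j) (h1 : e ∣ 2 * j)
    (h2 : ¬ e ∣ j) (h3 : e' ∣ 2 * j) (h4 : ¬ e' ∣ j) : u ∣ M := by
  obtain ⟨hm, -⟩ := h.cond
  refine (dvd_mul_left u r).trans (dvd_oplus hb (dvd_mul_right r u) h hm ((prim_odd hr he).mul (prim_odd hu he')) ?_)
  rw [← pow_mul, hf, pow_mul]
  exact mul_dvd hr hu hne (prim_dvd_plus hr h1 h2) (prim_dvd_plus hu h3 h4)

/-- `u` divides `Q + 1`: the torus `(Q ^ (m - 1) + 1) (Q + 1)` -/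
theorem kill_oplus' {k : ℕ} (hr : Prim (p ^ f) e r) (hu : Prim (p ^ f) e' u) (hne : e ≠ e') (he : 2 ≤ e) (he' : 2 ≤ e')
    (hb : Big S r M E) (h : IsNamed (.oplus m (p ^ f₁)) S) (hf : f₁ * (m - 1) = f * j) (h1 : e ∣ 2 * j)
    (h2 : ¬ e ∣ j) (hk : f₁ = f * k) (h3 : e' ∣ 2 * k) (h4 : ¬ e' ∣ k) : u ∣ M := by
  obtain ⟨hm, -⟩ := h.cond
  have h5 : r ∣ (p ^ f₁) ^ (m - 1) + 1 := by
    rw [← pow_mul, hf, pow_mul]
    exact prim_dvd_plus hr h1 h2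
  have h6 : u ∣ p ^ f₁ + 1 := by
    rw [hk, pow_mul]
    exact prim_dvd_plus hu h3 h4
  have h7 := elt_oplus' h hm (prim_odd hr he) (prim_odd hu he') h5 h6
  rw [((Nat.coprime_primes hr.prime hu.prime).2 (prim_ne hr hu hne)).lcm_eq_mul] at h7
  exact (dvd_mul_left u r).trans (dvd_of_big hb (dvd_mul_right r u) (Nat.mul_pos hr.prime.pos hu.prime.pos) h7)

/-- `Q ^ m = q ^ j`, `Q ^ a = q ^ b` -/
theorem kill_psl {a b : ℕ} (hr : Prim (p ^ f) e r) (hu : Prim (p ^ f) e' u) (hne : e ≠ e')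
    (hb : Big S r M E) (h : IsNamed (.psl m (p ^ f₁)) S) (hf : f₁ * m = f * j) (h1 : e ∣ j)
    (h3 : e' ∣ j) (hab : f₁ * a = f * b) (h2 : ¬ e ∣ b) (h4 : ¬ e' ∣ b) : u ∣ M := by
  obtain ⟨hm, -⟩ := h.cond
  have hco : ∀ {c v : ℕ}, Prim (p ^ f) c v → ¬ c ∣ b → ¬ v ∣ p ^ f₁ - 1 := by
    intro c v hv hc hd
    apply hc
    refine (hv.dvd_iff b).1 ?_
    rw [← pow_mul, ← hab, pow_mul]
    exact hd.trans (Nat.sub_one_dvd_pow_sub_one (p ^ f₁) a)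
  refine (dvd_mul_left u r).trans (dvd_psl hb (dvd_mul_right r u) h (by omega)
    (Nat.mul_pos hr.prime.pos hu.prime.pos) ?_ ?_)
  · rw [← pow_mul, hf, pow_mul]
    exact mul_dvd hr hu hne ((hr.dvd_iff j).2 h1) ((hu.dvd_iff j).2 h3)
  · exact Nat.Coprime.mul_left ((Nat.Prime.coprime_iff_not_dvd hr.prime).2 (hco hr h2))
      ((Nat.Prime.coprime_iff_not_dvd hu.prime).2 (hco hu h4))

/-- `Q ^ k = q ^ j`, `k` odd, `k ≤ m`, `Q ^ (2 a) = q ^ b` -/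
theorem kill_psu {a b : ℕ} (hr : Prim (p ^ f) e r) (hu : Prim (p ^ f) e' u) (hne : e ≠ e')
    (hb : Big S r M E) (h : IsNamed (.psu m (p ^ f₁)) S) (hk : Odd k) (hkm : k ≤ m) (hf : f₁ * k = f * j)
    (h1 : e ∣ 2 * j) (h2 : ¬ e ∣ j) (h3 : e' ∣ 2 * j) (h4 : ¬ e' ∣ j) (hab : f₁ * (2 * a) = f * b)
    (h5 : ¬ e ∣ b) (h6 : ¬ e' ∣ b) : u ∣ M := by
  obtain ⟨hm, -⟩ := h.cond
  have hco : ∀ {c v : ℕ}, Prim (p ^ f) c v → ¬ c ∣ b → ¬ v ∣ p ^ f₁ + 1 := by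
    intro c v hv hc hd
    apply hc
    refine (hv.dvd_iff b).1 ?_
    rw [← pow_mul, ← hab, pow_mul, pow_mul]
    have h7 : (p ^ f₁) ^ 2 - 1 = (p ^ f₁ + 1) * (p ^ f₁ - 1) := by
      have := Nat.sq_sub_sq (p ^ f₁) 1
      rwa [one_pow] at this
    have h8 : v ∣ (p ^ f₁) ^ 2 - 1 := by
      rw [h7]
      exact hd.mul_right _
    exact h8.trans (Nat.sub_one_dvd_pow_sub_one _ a)
  refine (dvd_mul_left u r).trans (dvd_psu hb (dvd_mul_right r u) h (by omega) hk hkm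
    (Nat.mul_pos hr.prime.pos hu.prime.pos) ?_ ?_)
  · rw [← pow_mul, hf, pow_mul]
    exact mul_dvd hr hu hne (prim_dvd_plus hr h1 h2) (prim_dvd_plus hu h3 h4)
  · exact Nat.Coprime.mul_left ((Nat.Prime.coprime_iff_not_dvd hr.prime).2 (hco hr h5))
      ((Nat.Prime.coprime_iff_not_dvd hu.prime).2 (hco hu h6))

end kill

end Cfsg.Agent.H290.Wei
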